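import Cfsg.Agent.RootSub.RankOne

/-! Sets of abstract root subgroups: the basic lemmas. -/

set_option autoImplicit false

namespace Cfsg.Agent.RootSub

open Cfsg
open scoped commutatorElement

variable {G : Type*} [Group G] {S : Set (Subgroup G)}

theorem comm_of_mem (hS : IsRootSubgroupSet S) {A : Subgroup G} (hA : A ∈ S) {a a' : G}
    (ha : a ∈ A) (ha' : a' ∈ A) : a * a' = a' * a := by
  have := hS.commutative A hA
  exact congrArg Subtype.val (mul_comm' (⟨a, ha⟩ : A) ⟨a', ha'⟩)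

theorem exists_ne_one_of_mem (hS : IsRootSubgroupSet S) {A : Subgroup G} (hA : A ∈ S) :
    ∃ a ∈ A, a ≠ 1 := Pair.exists_ne_one (hS.ne_bot A hA)

theorem comm_self (hS : IsRootSubgroupSet S) {A : Subgroup G} (hA : A ∈ S) : ⁅A, A⁆ = ⊥ :=
  commutator_eq_bot_iff_forall.2 fun _ ha _ ha' => comm_of_mem hS hA ha ha'

theorem unip_mem (hS : IsRootSubgroupSet S) {A B C : Subgroup G} (hA : A ∈ S)
    (hC : C ∈ unipotentSubgroups A B) : C ∈ S := by
  obtain ⟨x, -, rfl⟩ := hC
  exact hS.conj_mem A hA x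

/-! ### The commutator case -/

namespace CommCase

variable {A B : Subgroup G}

theorem symm (h : RootCommutatorCase S A B) : RootCommutatorCase S B A := by
  obtain ⟨h1, h2, h3, h4⟩ := h
  have e : ⁅B, A⁆ = ⁅A, B⁆ := Subgroup.commutator_comm B A
  have inv_eq : ∀ (f g : G → G) (s : Set G), (∀ x, f x = (g x)⁻¹) →
      Subgroup.closure (f '' s) = Subgroup.closure (g '' s) := by
    intro f g s hfg
    rw [← Subgroup.closure_inv (f '' s)]
    congr 1
    ext y
    simp only [Set.mem_inv, Set.mem_image, hfg]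
    constructor
    · rintro ⟨x, hx, hy⟩; exact ⟨x, hx, inv_injective hy⟩
    · rintro ⟨x, hx, rfl⟩; exact ⟨x, hx, rfl⟩
  refine ⟨e.symm ▸ h1, fun c hc x hx => h2 c (e ▸ hc) x (sup_comm B A ▸ hx), ?_, ?_⟩
  · intro b hb hb1
    rw [e, ← h4 b hb hb1]
    exact inv_eq _ _ _ fun x => by group
  · intro a ha ha1
    rw [e, ← h3 a ha ha1]
    exact inv_eq _ _ _ fun x => by group

theorem conj (hS : IsRootSubgroupSet S) (h : RootCommutatorCase S A B) (g : G) :
    RootCommutatorCase S (conjBy A g) (conjBy B g) := by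
  obtain ⟨h1, h2, h3, h4⟩ := h
  refine ⟨conjBy_commutator A B g ▸ hS.conj_mem _ h1 g, ?_, ?_, ?_⟩
  · intro c hc x hx
    rw [← conjBy_commutator] at hc
    rw [← conjBy_sup] at hx
    obtain ⟨c, hc, rfl⟩ := hc
    obtain ⟨x, hx, rfl⟩ := hx
    simp [← map_mul, h2 c hc x hx]
  · rintro _ ⟨a, ha, rfl⟩ ha1
    rw [← conjBy_commutator, ← h3 a ha (fun hh => ha1 (by simp [hh]))]
    unfold conjBy
    rw [MonoidHom.map_closure, Set.image_image]
    congr 1
    rw [Subgroup.coe_map, Set.image_image]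
    refine Set.image_congr fun x _ => ?_
    simp [mul_assoc]
  · rintro _ ⟨b, hb, rfl⟩ hb1
    rw [← conjBy_commutator, ← h4 b hb (fun hh => hb1 (by simp [hh]))]
    unfold conjBy
    rw [MonoidHom.map_closure, Set.image_image]
    congr 1
    rw [Subgroup.coe_map, Set.image_image]
    refine Set.image_congr fun x _ => ?_
    simp [mul_assoc]

theorem comm_left (h : RootCommutatorCase S A B) {c a : G} (hc : c ∈ ⁅A, B⁆) (ha : a ∈ A) :
    c * a = a * c := h.2.1 c hc a (Subgroup.mem_sup_left ha)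

theorem comm_right (h : RootCommutatorCase S A B) {c b : G} (hc : c ∈ ⁅A, B⁆) (hb : b ∈ B) :
    c * b = b * c := h.2.1 c hc b (Subgroup.mem_sup_right hb)

theorem commutator_mul_right (h : RootCommutatorCase S A B) {a b b' : G} (ha : a ∈ A)
    (hb : b ∈ B) (hb' : b' ∈ B) : ⁅a, b * b'⁆ = ⁅a, b⁆ * ⁅a, b'⁆ := by
  have hc := comm_right h (Subgroup.commutator_mem_commutator ha hb') hb
  calc ⁅a, b * b'⁆ = ⁅a, b⁆ * (b * ⁅a, b'⁆ * b⁻¹) := by
        simp only [commutatorElement_def]; group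
    _ = ⁅a, b⁆ * ⁅a, b'⁆ := by rw [← hc, mul_inv_cancel_right]

theorem commutator_inv_right (h : RootCommutatorCase S A B) {a b : G} (ha : a ∈ A) (hb : b ∈ B) :
    ⁅a, b⁻¹⁆ = ⁅a, b⁆⁻¹ := by
  refine (inv_eq_of_mul_eq_one_right ?_).symm
  rw [← commutator_mul_right h ha hb (inv_mem hb), mul_inv_cancel, commutatorElement_one_right]

/-- Every element of `[A, B]` is a commutator `[a, b]` with `a` fixed. -/
theorem exists_commutator_eq (h : RootCommutatorCase S A B) {a : G} (ha : a ∈ A) (ha1 : a ≠ 1)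
    {c : G} (hc : c ∈ ⁅A, B⁆) : ∃ b ∈ B, ⁅a, b⁆ = c := by
  rw [← h.2.2.1 a ha ha1] at hc
  induction hc using Subgroup.closure_induction with
  | mem x hx => obtain ⟨b, hb, rfl⟩ := hx; exact ⟨b, hb, rfl⟩
  | one => exact ⟨1, one_mem _, commutatorElement_one_right a⟩
  | mul x y _ _ hx hy =>
    obtain ⟨b, hb, rfl⟩ := hx
    obtain ⟨b', hb', rfl⟩ := hy
    exact ⟨b * b', mul_mem hb hb', commutator_mul_right h ha hb hb'⟩
  | inv x _ hx =>
    obtain ⟨b, hb, rfl⟩ := hx
    exact ⟨b⁻¹, inv_mem hb, commutator_inv_right h ha hb⟩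

theorem exists_commutator_ne_one (hS : IsRootSubgroupSet S) (h : RootCommutatorCase S A B)
    {a : G} (ha : a ∈ A) (ha1 : a ≠ 1) : ∃ b ∈ B, ⁅a, b⁆ ≠ 1 := by
  obtain ⟨c, hc, hc1⟩ := exists_ne_one_of_mem hS h.1
  obtain ⟨b, hb, he⟩ := exists_commutator_eq h ha ha1 hc
  exact ⟨b, hb, he ▸ hc1⟩

theorem ne_bot (hS : IsRootSubgroupSet S) (h : RootCommutatorCase S A B) : ⁅A, B⁆ ≠ ⊥ :=
  hS.ne_bot _ h.1

theorem left_ne_commutator (hS : IsRootSubgroupSet S) (h : RootCommutatorCase S A B) :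
    A ≠ ⁅A, B⁆ := by
  intro he
  refine ne_bot hS h (commutator_eq_bot_iff_forall.2 fun a ha b hb => ?_)
  exact comm_right h (he ▸ ha) hb

end CommCase

/-! ### Members inside a rank one group, and translates by centralizing elements -/

theorem mem_unipotents_or_central (hS : IsRootSubgroupSet S) {A C D : Subgroup G} (hA : A ∈ S)
    (hC : C ∈ S) (hD : D ∈ S) (hr : IsRankOnePair C D) (hle : A ≤ C ⊔ D) :
    A ∈ unipotentSubgroups C D ∨ ∀ a ∈ A, ∀ x ∈ C ⊔ D, a * x = x * a := by
  have hmemS : ∀ {E}, E ∈ unipotentSubgroups C D → E ∈ S := fun hE => unip_mem hS hC hE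
  have ofPair : ∀ {E}, E ∈ unipotentSubgroups C D → IsRankOnePair A E →
      A ∈ unipotentSubgroups C D := by
    intro E hE hAE
    obtain ⟨a, ha, ha1⟩ := exists_ne_one_of_mem hS hA
    obtain ⟨e, he, -, heq⟩ := hAE.cond_left a ha ha1
    rw [conjBy_eq_iff, inv_inv] at heq
    rw [heq]
    exact Pair.unip_invariant (Pair.unip_invariant hE (inv_mem (hle ha))) (Pair.unip_le hE he)
  -- A commutes with some member of Ω
  have step : ∀ {L E}, L ∈ S → L ≤ C ⊔ D → E ∈ unipotentSubgroups C D → ⁅L, E⁆ = ⊥ →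
      (∀ a ∈ L, ∀ x ∈ C ⊔ D, a * x = x * a) ∨
        ∃ F, F ∈ unipotentSubgroups C D ∧ IsRankOnePair L F := by
    intro L E hL hLle hE hcomm
    obtain ⟨F, hF, hne⟩ : ∃ F ∈ unipotentSubgroups C D, E ≠ F := by
      by_cases h : E = C
      · exact ⟨D, Pair.right_mem_unipotents hr, fun hh => hr.ne (h.symm.trans hh)⟩
      · exact ⟨C, Pair.left_mem_unipotents, h⟩
    have hEF := Pair.pair_of_ne hr hE hF hne
    have hs := Pair.sup_eq_of_ne hr hE hF hne
    have := hS.commutative E (hmemS hE)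
    have dec : ∀ a ∈ L, ∃ e ∈ E, ∀ y ∈ C ⊔ D, e⁻¹ * a * y = y * (e⁻¹ * a) := fun a ha =>
      hs ▸ Pair.exists_decomp_of_centralizes hEF (hs.symm ▸ hLle ha)
        (fun e he => commutator_eq_bot_iff_forall.1 hcomm a ha e he)
    by_cases hall : ∀ a ∈ L, ∀ x ∈ C ⊔ D, a * x = x * a
    · exact Or.inl hall
    · push Not at hall
      obtain ⟨a, ha, x, hx, hax⟩ := hall
      obtain ⟨e, he, hz⟩ := dec a ha
      have he1 : e ≠ 1 := by
        rintro rfl
        exact hax (by simpa using hz x hx)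
      refine Or.inr ⟨F, hF, ?_⟩
      have haF : ∀ f ∈ F, ⁅a, f⁆ = ⁅e, f⁆ := by
        intro f hf
        have h1 := hz f (Pair.unip_le hF hf)
        calc ⁅a, f⁆ = e * (e⁻¹ * a * f) * (e⁻¹ * a)⁻¹ * e⁻¹ * f⁻¹ := by
              simp only [commutatorElement_def]; group
          _ = e * (f * (e⁻¹ * a)) * (e⁻¹ * a)⁻¹ * e⁻¹ * f⁻¹ := by rw [h1]
          _ = ⁅e, f⁆ := by simp only [commutatorElement_def]; group
      obtain ⟨f, hf, hf1⟩ := exists_ne_one_of_mem hS (hmemS hF)
      rcases hS.pair L hL F (hmemS hF) with h0 | h0 | h0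
      · have h2 : ⁅a, f⁆ = 1 := commutatorElement_eq_one_iff_commute.2
          (commutator_eq_bot_iff_forall.1 h0 a ha f hf)
        rw [haF f hf] at h2
        exact absurd (commutatorElement_eq_one_iff_commute.1 h2)
          (Pair.not_commute hEF he he1 hf hf1)
      · exact h0
      · have h2 := CommCase.comm_right h0 (Subgroup.commutator_mem_commutator ha hf) hf
        rw [haF f hf] at h2
        exact absurd h2 (Pair.not_commute_commutator hEF he he1 hf hf1)
  by_cases hex : ∃ E ∈ unipotentSubgroups C D, ⁅A, E⁆ = ⊥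
  · obtain ⟨E, hE, hc⟩ := hex
    rcases step hA hle hE hc with h | ⟨F, hF, hAF⟩
    exacts [Or.inr h, Or.inl (ofPair hF hAF)]
  · push Not at hex
    by_cases hrk : ∃ E ∈ unipotentSubgroups C D, IsRankOnePair A E
    · obtain ⟨E, hE, hAE⟩ := hrk
      exact Or.inl (ofPair hE hAE)
    push Not at hrk
    exfalso
    have hcase : ∀ E ∈ unipotentSubgroups C D, RootCommutatorCase S A E := fun E hE =>
      ((hS.pair A hA E (hmemS hE)).resolve_left (hex E hE)).resolve_left (hrk E hE)
    -- all commutators are central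
    have hcent : ∀ E ∈ unipotentSubgroups C D, ∀ c ∈ ⁅A, E⁆, ∀ x ∈ C ⊔ D, c * x = x * c := by
      intro E hE
      have hc := hcase E hE
      have hLE : ⁅⁅A, E⁆, E⁆ = ⊥ := commutator_eq_bot_iff_forall.2 fun c hc' e he =>
        CommCase.comm_right hc hc' he
      have hLle : ⁅A, E⁆ ≤ C ⊔ D := Subgroup.commutator_le.2 fun a ha e he => by
        have hx := Pair.unip_le hE he
        simpa [commutatorElement_def] using
          mul_mem (mul_mem (mul_mem (hle ha) hx) (inv_mem (hle ha))) (inv_mem hx)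
      rcases step hc.1 hLle hE hLE with h | ⟨F, hF, hLF⟩
      · exact h
      exfalso
      obtain ⟨l, hl, hl1⟩ := exists_ne_one_of_mem hS hc.1
      obtain ⟨f, hf, -, heq⟩ := hLF.cond_left l hl hl1
      rw [conjBy_eq_iff, inv_inv] at heq
      have hLΩ : ⁅A, E⁆ ∈ unipotentSubgroups C D := by
        rw [heq]
        exact Pair.unip_invariant (Pair.unip_invariant hF (inv_mem (hLle hl)))
          (Pair.unip_le hF hf)
      have hLeq := Pair.eq_of_commute hr hLΩ hE hLE
      refine hex E hE (commutator_eq_bot_iff_forall.2 fun a ha e he => ?_)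
      exact (CommCase.comm_left hc (hLeq.symm ▸ he) ha).symm
    obtain ⟨a, ha, ha1⟩ := exists_ne_one_of_mem hS hA
    have hcD := hcase D (Pair.right_mem_unipotents hr)
    obtain ⟨d, hd, hd1⟩ := CommCase.exists_commutator_ne_one hS hcD ha ha1
    have hfix : conjBy D a = D := by
      by_contra hne
      have hp := Pair.pair_of_ne hr (Pair.unip_invariant (Pair.right_mem_unipotents hr) (hle ha))
        (Pair.right_mem_unipotents hr) hne
      have hd0 : d ≠ 1 := by rintro rfl; exact hd1 (commutatorElement_one_right a)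
      refine Pair.not_commute hp (conj_mem_conjBy a hd) (by simpa using hd0) hd hd0 ?_
      have h2 := hcent D (Pair.right_mem_unipotents hr) _
        (Subgroup.commutator_mem_commutator ha hd) d (Subgroup.mem_sup_right hd)
      rw [commutatorElement_def] at h2
      calc a * d * a⁻¹ * d = (a * d * a⁻¹ * d⁻¹ * d) * d := by group
        _ = (d * (a * d * a⁻¹ * d⁻¹)) * d := by rw [h2]
        _ = d * (a * d * a⁻¹) := by group
    have hmem : ⁅a, d⁆ ∈ D := by
      have := conj_mem_conjBy a hd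
      rw [hfix] at this
      simpa [commutatorElement_def] using mul_mem this (inv_mem hd)
    refine hd1 (Pair.eq_one_of_normalizes (RankOnePair_symm hr) hmem (conjBy_of_commute ?_))
    exact fun c hc => hcent D (Pair.right_mem_unipotents hr) _
      (Subgroup.commutator_mem_commutator ha hd) c (Subgroup.mem_sup_left hc)

theorem left_le_normalizer_commutator (A B : Subgroup G) :
    A ≤ Subgroup.normalizer ((⁅A, B⁆ : Subgroup G) : Set G) := by
  have key : ∀ a ∈ A, ∀ x ∈ ⁅A, B⁆, a * x * a⁻¹ ∈ ⁅A, B⁆ := by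
    intro a ha x hx
    rw [Subgroup.commutator_def] at hx
    induction hx using Subgroup.closure_induction with
    | mem y hy =>
      obtain ⟨a', ha', b, hb, rfl⟩ := hy
      have : a * ⁅a', b⁆ * a⁻¹ = ⁅a * a', b⁆ * ⁅a, b⁆⁻¹ := by
        simp only [commutatorElement_def]; group
      rw [this]
      exact mul_mem (Subgroup.commutator_mem_commutator (mul_mem ha ha') hb)
        (inv_mem (Subgroup.commutator_mem_commutator ha hb))
    | one => simp
    | mul y z _ _ hy hz =>
      have : a * (y * z) * a⁻¹ = (a * y * a⁻¹) * (a * z * a⁻¹) := by group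
      rw [this]; exact mul_mem hy hz
    | inv y _ hy =>
      have : a * y⁻¹ * a⁻¹ = (a * y * a⁻¹)⁻¹ := by group
      rw [this]; exact inv_mem hy
  intro a ha
  rw [Subgroup.mem_normalizer_iff]
  refine fun x => ⟨key a ha x, fun hx => ?_⟩
  have := key a⁻¹ (inv_mem ha) _ hx
  simpa [mul_assoc] using this

theorem not_rankOne_of_commutator_mem (hS : IsRootSubgroupSet S) {A B : Subgroup G} (hA : A ∈ S)
    (hB : B ∈ S) (hC : ⁅A, B⁆ ∈ S) : ¬ IsRankOnePair A B := by
  intro hr
  have hle : ⁅A, B⁆ ≤ A ⊔ B := Subgroup.commutator_le.2 fun a ha b hb => by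
    simpa [commutatorElement_def] using mul_mem (mul_mem (mul_mem (Subgroup.mem_sup_left ha)
      (Subgroup.mem_sup_right hb)) (inv_mem (Subgroup.mem_sup_left ha : a ∈ A ⊔ B)))
      (inv_mem (Subgroup.mem_sup_right hb : b ∈ A ⊔ B))
  have hnorm : ∀ x ∈ A ⊔ B, conjBy ⁅A, B⁆ x = ⁅A, B⁆ := by
    intro x hx
    have hxA : A ≤ Subgroup.normalizer ((⁅A, B⁆ : Subgroup G) : Set G) :=
      left_le_normalizer_commutator A B
    have hxB : B ≤ Subgroup.normalizer ((⁅A, B⁆ : Subgroup G) : Set G) :=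
      Subgroup.commutator_comm B A ▸ left_le_normalizer_commutator B A
    exact conjBy_eq_self_iff.2 (sup_le hxA hxB hx)
  rcases mem_unipotents_or_central hS hC hA hB hr hle with hΩ | hcent
  · obtain ⟨x, hx, he⟩ := hΩ
    have hAC : A = ⁅A, B⁆ := conjBy_inj (he.symm.trans (hnorm x hx).symm)
    obtain ⟨b, hb, hb1⟩ := exists_ne_one_of_mem hS hB
    refine hb1 (Pair.eq_one_of_normalizes (RankOnePair_symm hr) hb ?_)
    rw [hAC]
    exact hnorm b (Subgroup.mem_sup_right hb)
  · have hc : ∀ a ∈ A, ∀ x ∈ A ⊔ B, ∀ y ∈ A ⊔ B, ⁅a, x⁆ * y = y * ⁅a, x⁆ := by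
      intro a ha x hx
      have hxgood : x ∈ Subgroup.closure ((A : Set G) ∪ B) := by
        rwa [← Subgroup.sup_eq_closure]
      induction hxgood using Subgroup.closure_induction with
      | mem x hx' =>
        intro y hy
        rcases hx' with hxa | hxb
        · rw [commutatorElement_eq_one_iff_commute.2 (comm_of_mem hS hA ha hxa)]; simp
        · exact hcent _ (Subgroup.commutator_mem_commutator ha hxb) y hy
      | one => intro y _; simp
      | mul x z hx' hz' ih1 ih2 =>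
        intro y hy
        rw [← Subgroup.sup_eq_closure] at hx' hz'
        have h2 : x * ⁅a, z⁆ * x⁻¹ = ⁅a, z⁆ := by
          rw [← ih2 hz' x hx', mul_inv_cancel_right]
        have : ⁅a, x * z⁆ = ⁅a, x⁆ * ⁅a, z⁆ := by
          calc ⁅a, x * z⁆ = ⁅a, x⁆ * (x * ⁅a, z⁆ * x⁻¹) := by
                simp only [commutatorElement_def]; group
            _ = _ := by rw [h2]
        rw [this, mul_assoc, ih2 hz' y hy, ← mul_assoc, ih1 hx' y hy, mul_assoc]
      | inv x hx' ih1 =>
        intro y hy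
        rw [← Subgroup.sup_eq_closure] at hx'
        have h0 := ih1 hx' x⁻¹ (inv_mem hx')
        have : ⁅a, x⁻¹⁆ = ⁅a, x⁆⁻¹ := by
          calc ⁅a, x⁻¹⁆ = x⁻¹ * ⁅a, x⁆⁻¹ * x := by simp only [commutatorElement_def]; group
            _ = ⁅a, x⁆⁻¹ := by
              have h3 : Commute ⁅a, x⁆⁻¹ x := Commute.inv_left (show Commute ⁅a, x⁆ x from ih1 hx' x hx')
              rw [mul_assoc, h3.eq, inv_mul_cancel_left]
        rw [this]
        exact Commute.inv_left (show Commute ⁅a, x⁆ y from ih1 hx' y hy)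
    refine Pair.commutator_ne_bot hr (commutator_eq_bot_iff_forall.2 fun a ha b hb => ?_)
    exact Pair.central_of_commutator_central hr (Subgroup.mem_sup_left ha) (hc a ha) b
      (Subgroup.mem_sup_right hb)

theorem commCase_of_mem (hS : IsRootSubgroupSet S) {A B : Subgroup G} (hA : A ∈ S)
    (hB : B ∈ S) (hC : ⁅A, B⁆ ∈ S) : RootCommutatorCase S A B :=
  ((hS.pair A hA B hB).resolve_left (hS.ne_bot _ hC)).resolve_left
    (not_rankOne_of_commutator_mem hS hA hB hC)

theorem not_rankOne_of_commCase (hS : IsRootSubgroupSet S) {A B : Subgroup G} (hA : A ∈ S)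
    (hB : B ∈ S) (hC : RootCommutatorCase S A B) : ¬ IsRankOnePair A B :=
  not_rankOne_of_commutator_mem hS hA hB hC.1

/-- If `z` centralizes a rank one group `⟨A, B⟩` and `z * a` lies in a member `C`, then `C = A`
and `z = 1`. -/
theorem eq_of_centralizer_mul_mem (hS : IsRootSubgroupSet S) {A B C : Subgroup G} (hA : A ∈ S)
    (hB : B ∈ S) (hC : C ∈ S) (hr : IsRankOnePair A B) {z : G}
    (hzA : ∀ a ∈ A, z * a = a * z) (hzB : ∀ b ∈ B, z * b = b * z) {a : G} (ha : a ∈ A)
    (ha1 : a ≠ 1) (hm : z * a ∈ C) : C = A ∧ z = 1 := by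
  have hzab : ∀ b ∈ B, ⁅z * a, b⁆ = ⁅a, b⁆ := by
    intro b hb
    have h1 : ⁅z, b⁆ = 1 := commutatorElement_eq_one_iff_commute.2 (hzB b hb)
    have hzab2 : ∀ x ∈ A ⊔ B, z * x = x * z := forall_sup_commute hzA hzB
    have h2 : ⁅a, b⁆ ∈ A ⊔ B := by
      simpa [commutatorElement_def] using mul_mem (mul_mem (mul_mem (Subgroup.mem_sup_left ha)
        (Subgroup.mem_sup_right hb)) (inv_mem (Subgroup.mem_sup_left ha : a ∈ A ⊔ B)))
        (inv_mem (Subgroup.mem_sup_right hb : b ∈ A ⊔ B))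
    calc ⁅z * a, b⁆ = z * ⁅a, b⁆ * z⁻¹ * ⁅z, b⁆ := by simp only [commutatorElement_def]; group
      _ = ⁅a, b⁆ := by rw [h1, mul_one, hzab2 _ h2, mul_inv_cancel_right]
  have hne1 : z * a ≠ 1 := by
    intro h1
    obtain ⟨b, hb, hb1⟩ := Pair.exists_ne_one (Pair.ne_bot_right hr)
    have := hzab b hb
    rw [h1, commutatorElement_one_left] at this
    exact Pair.not_commute hr ha ha1 hb hb1 (commutatorElement_eq_one_iff_commute.1 this.symm)
  have hzaA : ∀ a' ∈ A, (z * a) * a' = a' * (z * a) := by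
    intro a' ha'
    rw [mul_assoc, comm_of_mem hS hA ha ha', ← mul_assoc, hzA a' ha', mul_assoc]
  have hCA : ⁅C, A⁆ = ⊥ := by
    rcases hS.pair C hC A hA with h0 | h0 | h0
    · exact h0
    · exact absurd (hzaA a ha) (Pair.not_commute h0 hm hne1 ha ha1)
    · obtain ⟨a', ha', hne⟩ := CommCase.exists_commutator_ne_one hS h0 hm hne1
      exact absurd (commutatorElement_eq_one_iff_commute.2 (hzaA a' ha')) hne
  obtain ⟨b, hb, hb1⟩ := Pair.exists_ne_one (Pair.ne_bot_right hr)
  rcases hS.pair C hC B hB with h0 | h0 | h0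
  · exfalso
    have h2 := hzab b hb
    rw [commutatorElement_eq_one_iff_commute.2 (commutator_eq_bot_iff_forall.1 h0 _ hm b hb)] at h2
    exact Pair.not_commute hr ha ha1 hb hb1 (commutatorElement_eq_one_iff_commute.1 h2.symm)
  · obtain ⟨b', hb', -, he⟩ := h0.cond_left (z * a) hm hne1
    have hBz : conjBy B (z * a)⁻¹ = conjBy B a⁻¹ := by
      rw [mul_inv_rev, ← conjBy_conjBy]
      congr 1
      exact conjBy_eq_iff.1 (conjBy_of_commute hzB) |>.symm
    rw [hBz, conjBy_eq_iff, inv_inv] at he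
    have hCΩ : C ∈ unipotentSubgroups A B := by
      rw [he]
      exact Pair.unip_invariant (Pair.unip_invariant (Pair.right_mem_unipotents hr)
        (inv_mem (Subgroup.mem_sup_left ha))) (Subgroup.mem_sup_right hb')
    have hCeq := Pair.eq_of_commute hr hCΩ Pair.left_mem_unipotents hCA
    refine ⟨hCeq, Pair.eq_one_of_normalizes hr ?_ (conjBy_of_commute hzB)⟩
    subst hCeq
    simpa using mul_mem hm (inv_mem ha)
  · exfalso
    have h2 := CommCase.comm_right h0 (Subgroup.commutator_mem_commutator hm hb) hb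
    rw [hzab b hb] at h2
    exact Pair.not_commute_commutator hr ha ha1 hb hb1 h2

/-- A member with a rank one partner meets every other member trivially. -/
theorem eq_of_inter (hS : IsRootSubgroupSet S) {A B C : Subgroup G} (hA : A ∈ S) (hB : B ∈ S)
    (hC : C ∈ S) (hr : IsRankOnePair A B) {x : G} (hxA : x ∈ A) (hxC : x ∈ C) (hx : x ≠ 1) :
    C = A :=
  (eq_of_centralizer_mul_mem hS hA hB hC hr (z := 1) (by simp) (by simp) hxA hx
    (by simpa using hxC)).1

theorem inf_eq_bot_of_partner (hS : IsRootSubgroupSet S) {A B C : Subgroup G} (hA : A ∈ S)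
    (hB : B ∈ S) (hC : C ∈ S) (hr : IsRankOnePair A B) (hne : C ≠ A) : A ⊓ C = ⊥ := by
  rw [eq_bot_iff]
  rintro x ⟨hxA, hxC⟩
  by_contra hx
  exact hne (eq_of_inter hS hA hB hC hr hxA hxC (by simpa using hx))

theorem exists_partner {A : Subgroup G} (hA : A ∈ S)
    (h : ¬ IsIsolatedIn (FAdj S) S A) : ∃ D ∈ S, IsRankOnePair A D := by
  by_contra hh
  push Not at hh
  refine h ⟨hA, fun B => ⟨fun hb => hh B hb.2.1 hb.2.2,
    fun hb => hh B hb.1 (RankOnePair_symm hb.2.2)⟩⟩

/-- If a member with a rank one partner does not commute with `B`, no nontrivial elements of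
the two commute. -/
theorem not_commute_elements (hS : IsRootSubgroupSet S) {A B D : Subgroup G} (hA : A ∈ S)
    (hB : B ∈ S) (hD : D ∈ S) (hr : IsRankOnePair A D) (hAB : ⁅A, B⁆ ≠ ⊥) {a b : G}
    (ha : a ∈ A) (ha1 : a ≠ 1) (hb : b ∈ B) (hb1 : b ≠ 1) : a * b ≠ b * a := by
  intro hab
  rcases (hS.pair A hA B hB).resolve_left hAB with h0 | h0
  · exact Pair.not_commute h0 ha ha1 hb hb1 hab
  have hmem : a ∈ conjBy A b := by
    rw [mem_conjBy, mul_assoc, hab, ← mul_assoc, inv_mul_cancel, one_mul]; exact ha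
  have hfix : conjBy A b = A := eq_of_inter hS hA hD (hS.conj_mem A hA b) hr ha hmem ha1
  obtain ⟨a', ha', hne⟩ := CommCase.exists_commutator_ne_one hS (CommCase.symm h0) hb hb1
  have hin : ⁅b, a'⁆ ∈ A := by
    have := conj_mem_conjBy b ha'
    rw [hfix] at this
    simpa [commutatorElement_def] using mul_mem this (inv_mem ha')
  have hin2 : ⁅b, a'⁆ ∈ ⁅A, B⁆ := by
    rw [Subgroup.commutator_comm]; exact Subgroup.commutator_mem_commutator hb ha'
  have := eq_of_inter hS hA hD h0.1 hr hin hin2 hne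
  exact CommCase.left_ne_commutator hS h0 this.symm

end Cfsg.Agent.RootSub
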