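import Cfsg.Agent.RootSub.Lines

/-! Nilpotent configurations and the opposite configuration of commutator pairs. -/

set_option autoImplicit false

namespace Cfsg.Agent.RootSub

open Cfsg
open scoped commutatorElement

variable {G : Type*} [Group G] {S : Set (Subgroup G)}

theorem normalizes_closure {s : Set G} {g : G} (h : ∀ x ∈ s, g * x * g⁻¹ ∈ Subgroup.closure s) :
    ∀ q ∈ Subgroup.closure s, g * q * g⁻¹ ∈ Subgroup.closure s := by
  intro q hq
  induction hq using Subgroup.closure_induction with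
  | mem x hx => exact h x hx
  | one => simp
  | mul x y _ _ hx hy =>
    have : g * (x * y) * g⁻¹ = (g * x * g⁻¹) * (g * y * g⁻¹) := by group
    rw [this]; exact mul_mem hx hy
  | inv x _ hx =>
    have : g * x⁻¹ * g⁻¹ = (g * x * g⁻¹)⁻¹ := by group
    rw [this]; exact inv_mem hx

/-- A commutator subgroup lies in a subgroup normalized by the generators which contains the
commutators of generators. -/
theorem commutator_closure_le {s t : Set G} {Q : Subgroup G}
    (hs : ∀ x ∈ s, x ∈ Subgroup.normalizer (Q : Set G))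
    (ht : ∀ y ∈ t, y ∈ Subgroup.normalizer (Q : Set G))
    (h : ∀ x ∈ s, ∀ y ∈ t, ⁅x, y⁆ ∈ Q) : ⁅Subgroup.closure s, Subgroup.closure t⁆ ≤ Q := by
  have hs' : Subgroup.closure s ≤ Subgroup.normalizer (Q : Set G) := (Subgroup.closure_le _).2 hs
  have ht' : Subgroup.closure t ≤ Subgroup.normalizer (Q : Set G) := (Subgroup.closure_le _).2 ht
  have cj : ∀ g ∈ Subgroup.normalizer (Q : Set G), ∀ q ∈ Q, g * q * g⁻¹ ∈ Q :=
    fun g hg q hq => (Subgroup.mem_normalizer_iff.1 hg q).1 hq
  have h1 : ∀ x ∈ s, ∀ y ∈ Subgroup.closure t, ⁅x, y⁆ ∈ Q := by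
    intro x hx y hy
    induction hy using Subgroup.closure_induction with
    | mem y hy => exact h x hx y hy
    | one => simp
    | mul y z hy hz ihy ihz =>
      have : ⁅x, y * z⁆ = ⁅x, y⁆ * (y * ⁅x, z⁆ * y⁻¹) := by simp only [commutatorElement_def]; group
      rw [this]; exact mul_mem ihy (cj y (ht' hy) _ ihz)
    | inv y hy ihy =>
      have : ⁅x, y⁻¹⁆ = y⁻¹ * ⁅x, y⁆⁻¹ * (y⁻¹)⁻¹ := by simp only [commutatorElement_def]; group
      rw [this]; exact cj _ (ht' (inv_mem hy)) _ (inv_mem ihy)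
  rw [Subgroup.commutator_le]
  intro x hx y hy
  induction hx using Subgroup.closure_induction with
  | mem x hx => exact h1 x hx y hy
  | one => simp
  | mul x z hx _ ihx ihz =>
    have : ⁅x * z, y⁆ = (x * ⁅z, y⁆ * x⁻¹) * ⁅x, y⁆ := by simp only [commutatorElement_def]; group
    rw [this]; exact mul_mem (cj x (hs' hx) _ ihz) ihx
  | inv x hx ihx =>
    have : ⁅x⁻¹, y⁆ = x⁻¹ * ⁅x, y⁆⁻¹ * (x⁻¹)⁻¹ := by simp only [commutatorElement_def]; group
    rw [this]; exact cj _ (hs' (inv_mem hx)) _ (inv_mem ihx)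

theorem sup_normalizes {P Q : Subgroup G} {g : G} (hP : conjBy P g ≤ P ⊔ Q)
    (hQ : conjBy Q g ≤ P ⊔ Q) : conjBy (P ⊔ Q) g ≤ P ⊔ Q := by
  rw [conjBy_sup]; exact sup_le hP hQ

/-- A nilpotency criterion by a series given by generators. -/
theorem isNilpotent_of_gen_series (n : ℕ) (s : ℕ → Set G) (hn : s n ⊆ {1})
    (hmono : ∀ i < n, s (i + 1) ⊆ Subgroup.closure (s i))
    (hstep : ∀ i < n, ∀ x ∈ s i, ∀ g ∈ s 0, ⁅x, g⁆ ∈ Subgroup.closure (s (i + 1))) :
    Group.IsNilpotent ↥(Subgroup.closure (s 0)) := by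
  set R := Subgroup.closure (s 0) with hR
  have hbot : Subgroup.closure (s n) = ⊥ := by
    rw [eq_bot_iff, Subgroup.closure_le]
    exact fun x hx => Subgroup.mem_bot.2 (hn hx)
  have hnorm : ∀ j ≤ n, ∀ g ∈ s 0,
      g ∈ Subgroup.normalizer ((Subgroup.closure (s (n - j))) : Set G) := by
    intro j
    induction j with
    | zero =>
      intro _ g _
      rw [Nat.sub_zero, ← conjBy_eq_self_iff, hbot, conjBy_bot]
    | succ j ih =>
      intro hj g hg
      have hi : n - (j + 1) + 1 = n - j := by omega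
      have hlt : n - (j + 1) < n := by omega
      set P := Subgroup.closure (s (n - (j + 1)))
      have hQP : Subgroup.closure (s (n - j)) ≤ P :=
        (Subgroup.closure_le _).2 (hi ▸ hmono _ hlt)
      have key : ∀ g' : G, g' = g ∨ g' = g⁻¹ → ∀ q ∈ P, g' * q * g'⁻¹ ∈ P := by
        intro g' hg'
        refine normalizes_closure fun x hx => ?_
        have hc : ⁅x, g'⁆ ∈ Subgroup.closure (s (n - j)) := by
          have h0 := hi ▸ hstep _ hlt x hx g hg
          rcases hg' with rfl | rfl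
          · exact h0
          · have hcj := (Subgroup.mem_normalizer_iff.1 (inv_mem (ih (by omega) g hg)) ⁅x, g⁆⁻¹).1
              (inv_mem h0)
            have : ⁅x, g⁻¹⁆ = g⁻¹ * ⁅x, g⁆⁻¹ * (g⁻¹)⁻¹ := by
              simp only [commutatorElement_def]; group
            rw [this]; exact hcj
        have : g' * x * g'⁻¹ = (⁅x, g'⁆)⁻¹ * x := by simp only [commutatorElement_def]; group
        rw [this]
        exact mul_mem (inv_mem (hQP hc)) (Subgroup.subset_closure hx)
      rw [Subgroup.mem_normalizer_iff]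
      refine fun x => ⟨key g (Or.inl rfl) x, fun hx => ?_⟩
      have := key g⁻¹ (Or.inr rfl) _ hx
      simpa [mul_assoc] using this
  have hnorm' : ∀ i ≤ n, R ≤ Subgroup.normalizer ((Subgroup.closure (s i)) : Set G) := by
    intro i hi
    refine (Subgroup.closure_le _).2 fun g hg => ?_
    have := hnorm (n - i) (by omega) g hg
    rwa [show n - (n - i) = i by omega] at this
  have hle : ∀ i ≤ n, Subgroup.closure (s i) ≤ R := by
    intro i
    induction i with
    | zero => exact fun _ => le_rfl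
    | succ i ih =>
      intro hi
      exact ((Subgroup.closure_le _).2 (hmono i (by omega))).trans (ih (by omega))
  have main : ∀ i ≤ n, ((⊤ : Subgroup ↥R).lowerCentralSeries i).map R.subtype ≤ Subgroup.closure (s i) := by
    intro i
    induction i with
    | zero =>
      intro _
      rw [Subgroup.lowerCentralSeries_zero, ← MonoidHom.range_eq_map, Subgroup.range_subtype]
    | succ i ih =>
      intro hi
      rw [Subgroup.lowerCentralSeries_succ, Subgroup.map_commutator,
        ← MonoidHom.range_eq_map, Subgroup.range_subtype]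
      refine (Subgroup.commutator_mono (ih (by omega)) le_rfl).trans ?_
      refine commutator_closure_le (fun x hx => ?_) (fun g hg => ?_) (hstep i (by omega))
      · exact hnorm' _ hi (hle i (by omega) (Subgroup.subset_closure hx))
      · exact hnorm' _ hi (Subgroup.subset_closure hg)
  refine nilpotent_iff_lowerCentralSeries.2 ⟨n, ?_⟩
  rw [← Subgroup.map_eq_bot_iff_of_injective _ (Subgroup.subtype_injective R), eq_bot_iff]
  exact (main n le_rfl).trans hbot.le

namespace CommCase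

variable {A B : Subgroup G}

theorem sup_conj_eq_line (h : RootCommutatorCase S A B) {b : G} (hb : b ∈ B) (hb1 : b ≠ 1) :
    A ⊔ conjBy A b = A ⊔ ⁅A, B⁆ := by
  refine le_antisymm (sup_le le_sup_left (conjBy_le_line h hb)) (sup_le le_sup_left fun c hc => ?_)
  obtain ⟨a, ha, he⟩ := exists_commutator_eq' h hb hb1 (inv_mem hc)
  have : c = a⁻¹ * (b * a * b⁻¹) := by rw [conj_eq_mul h ha hb, he]; group
  rw [this]
  exact mul_mem (Subgroup.mem_sup_left (inv_mem ha))
    (Subgroup.mem_sup_right (conj_mem_conjBy b ha))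

theorem conjBy_line (h : RootCommutatorCase S A B) {b : G} (hb : b ∈ B) :
    conjBy (A ⊔ ⁅A, B⁆) b = A ⊔ ⁅A, B⁆ := by
  have key : ∀ b ∈ B, conjBy (A ⊔ ⁅A, B⁆) b ≤ A ⊔ ⁅A, B⁆ := by
    intro b hb
    refine sup_normalizes (conjBy_le_line h hb) ?_
    rw [conjBy_of_commute fun c hc => (comm_right h hc hb).symm]
    exact le_sup_right
  refine le_antisymm (key b hb) ?_
  have := (conjBy_le_iff (g := b)).2 (key b⁻¹ (inv_mem hb))
  rwa [conjBy_conjBy, mul_inv_cancel, conjBy_one] at this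

end CommCase

theorem commutative_sup_iff (hS : IsRootSubgroupSet S) {P Q : Subgroup G} (hP : P ∈ S) (hQ : Q ∈ S) :
    IsMulCommutative ↥(P ⊔ Q) ↔ ⁅P, Q⁆ = ⊥ := by
  constructor
  · intro h
    refine commutator_eq_bot_iff_forall.2 fun p hp q hq => ?_
    exact congrArg Subtype.val (mul_comm'
      (⟨p, Subgroup.mem_sup_left hp⟩ : ↥(P ⊔ Q)) ⟨q, Subgroup.mem_sup_right hq⟩)
  · intro h
    rw [commutator_eq_bot_iff_forall] at h
    have key : ∀ x ∈ P ⊔ Q, ∀ y ∈ P ⊔ Q, x * y = y * x := by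
      intro x hx
      have hP' : ∀ p ∈ P, x * p = p * x := fun p hp =>
        ((forall_sup_commute (z := p) (fun p' hp' => comm_of_mem hS hP hp hp') (h p hp)) x hx).symm
      have hQ' : ∀ q ∈ Q, x * q = q * x := fun q hq =>
        ((forall_sup_commute (z := q) (fun p hp => (h p hp q hq).symm)
          (fun q' hq' => comm_of_mem hS hQ hq hq')) x hx).symm
      exact forall_sup_commute hP' hQ'
    exact ⟨⟨fun x y => Subtype.ext (key x x.2 y y.2)⟩⟩

theorem class_two_of_commCase (hS : IsRootSubgroupSet S) {P Q : Subgroup G} (hP : P ∈ S)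
    (hQ : Q ∈ S) (h : RootCommutatorCase S P Q) :
    ⁅P ⊔ Q, P ⊔ Q⁆ ≤ ⁅P, Q⁆ ∧ ⁅⁅P ⊔ Q, P ⊔ Q⁆, P ⊔ Q⁆ = ⊥ := by
  have hnorm : ∀ x ∈ (P : Set G) ∪ Q, x ∈ Subgroup.normalizer ((⁅P, Q⁆ : Subgroup G) : Set G) := by
    rintro x (hx | hx)
    · exact left_le_normalizer_commutator P Q hx
    · exact (Subgroup.commutator_comm Q P ▸ left_le_normalizer_commutator Q P) hx
  have h1 : ⁅P ⊔ Q, P ⊔ Q⁆ ≤ ⁅P, Q⁆ := by
    rw [Subgroup.sup_eq_closure]
    refine commutator_closure_le hnorm hnorm ?_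
    rintro x (hx | hx) y (hy | hy)
    · rw [commutatorElement_eq_one_iff_commute.2 (comm_of_mem hS hP hx hy)]; exact one_mem _
    · exact Subgroup.commutator_mem_commutator hx hy
    · rw [Subgroup.commutator_comm]; exact Subgroup.commutator_mem_commutator hx hy
    · rw [commutatorElement_eq_one_iff_commute.2 (comm_of_mem hS hQ hx hy)]; exact one_mem _
  exact ⟨h1, commutator_eq_bot_iff_forall.2 fun c hc => h.2.1 c (h1 hc)⟩

section Triangle

variable {A B C : Subgroup G}

theorem triangle_not_rankOne (hS : IsRootSubgroupSet S) (hA : A ∈ S) (hC : C ∈ S)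
    (h1 : RootCommutatorCase S A B) (hAC : ⁅A, C⁆ = ⊥) {b : G} (hb : b ∈ B) :
    ¬ IsRankOnePair A (conjBy C b) := by
  intro hr
  obtain ⟨a, ha, ha1⟩ := exists_ne_one_of_mem hS hA
  have h := eq_of_centralizer_mul_mem hS hA (hS.conj_mem C hC b) h1.1 hr
    (z := b * a * b⁻¹) ?_ ?_ (inv_mem ha) (by simpa using ha1) ?_
  · exact ha1 (by simpa using h.2)
  · intro a' ha'
    rw [CommCase.conj_eq_mul h1 ha hb]
    exact (show Commute a a' from comm_of_mem hS hA ha ha').mul_left
      (show Commute ⁅a, b⁆ a' from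
        CommCase.comm_left h1 (Subgroup.commutator_mem_commutator ha hb) ha').inv_left
  · intro x hx
    obtain ⟨c, hc, rfl⟩ : ∃ c ∈ C, b * c * b⁻¹ = x := ⟨_, mem_conjBy.1 hx, by group⟩
    have := commutator_eq_bot_iff_forall.1 hAC a ha c hc
    calc b * a * b⁻¹ * (b * c * b⁻¹) = b * (a * c) * b⁻¹ := by group
      _ = b * (c * a) * b⁻¹ := by rw [this]
      _ = b * c * b⁻¹ * (b * a * b⁻¹) := by group
  · have : b * a * b⁻¹ * a⁻¹ = ⁅b, a⁆ := by rw [commutatorElement_def]
    rw [this, Subgroup.commutator_comm]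
    exact Subgroup.commutator_mem_commutator hb ha

theorem triangle_bot_iff (hS : IsRootSubgroupSet S) (hC : C ∈ S)
    (h2 : RootCommutatorCase S B C) (hAC : ⁅A, C⁆ = ⊥) {b : G} (hb : b ∈ B) (hb1 : b ≠ 1) :
    ⁅A, conjBy C b⁆ = ⊥ ↔ ⁅A, ⁅B, C⁆⁆ = ⊥ := by
  simp only [commutator_eq_bot_iff_forall] at hAC ⊢
  have hx : ∀ c ∈ C, b * c * b⁻¹ = ⁅b, c⁆ * c := fun c _ => by
    simp only [commutatorElement_def]; group
  constructor
  · intro h a ha m hm
    obtain ⟨c, hc, rfl⟩ := CommCase.exists_commutator_eq h2 hb hb1 hm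
    rw [commutatorElement_def]
    exact (show Commute a (b * c * b⁻¹) from h a ha _ (conj_mem_conjBy b hc)).mul_right
      (show Commute a c from hAC a ha c hc).inv_right
  · intro h a ha x hx'
    obtain ⟨c, hc, rfl⟩ : ∃ c ∈ C, b * c * b⁻¹ = x := ⟨_, mem_conjBy.1 hx', by group⟩
    rw [hx c hc]
    exact (show Commute a ⁅b, c⁆ from h a ha _ (Subgroup.commutator_mem_commutator hb hc)).mul_right
      (show Commute a c from hAC a ha c hc)

theorem triangle (hS : IsRootSubgroupSet S) (hA : A ∈ S) (_hB : B ∈ S) (hC : C ∈ S)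
    (h1 : RootCommutatorCase S A B) (h2 : RootCommutatorCase S B C) (hAC : ⁅A, C⁆ = ⊥)
    {b : G} (hb : b ∈ B) (hb1 : b ≠ 1) :
    ((IsMulCommutative ↥(A ⊔ conjBy C b⁻¹) ∧ IsMulCommutative ↥(conjBy A b⁻¹ ⊔ C)) ∨
      ((¬ IsMulCommutative ↥(A ⊔ conjBy C b⁻¹) ∧
          ⁅⁅A ⊔ conjBy C b⁻¹, A ⊔ conjBy C b⁻¹⁆, A ⊔ conjBy C b⁻¹⁆ = ⊥) ∧
        (¬ IsMulCommutative ↥(conjBy A b⁻¹ ⊔ C) ∧
          ⁅⁅conjBy A b⁻¹ ⊔ C, conjBy A b⁻¹ ⊔ C⁆, conjBy A b⁻¹ ⊔ C⁆ = ⊥))) ∧
    ⁅A ⊔ conjBy C b⁻¹, conjBy A b⁻¹ ⊔ C⁆ = ⊥ ∧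
    (∀ r ∈ A ⊔ B ⊔ C, conjBy ((A ⊔ conjBy C b⁻¹) ⊔ (conjBy A b⁻¹ ⊔ C)) r =
      (A ⊔ conjBy C b⁻¹) ⊔ (conjBy A b⁻¹ ⊔ C)) ∧
    ((A ⊔ conjBy C b⁻¹) ⊔ (conjBy A b⁻¹ ⊔ C)) ⊔ B = A ⊔ B ⊔ C ∧
    Group.IsNilpotent ↥(A ⊔ B ⊔ C) := by
  have h2' := CommCase.symm h2
  have hM : ⁅C, B⁆ = ⁅B, C⁆ := Subgroup.commutator_comm C B
  have hb' := inv_mem hb
  have hb1' : b⁻¹ ≠ 1 := by simpa using hb1
  have hXS := hS.conj_mem C hC b⁻¹
  have hYS := hS.conj_mem A hA b⁻¹
  have hiffX : IsMulCommutative ↥(A ⊔ conjBy C b⁻¹) ↔ ⁅A, ⁅B, C⁆⁆ = ⊥ := by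
    rw [commutative_sup_iff hS hA hXS, triangle_bot_iff hS hC h2 hAC hb' hb1']
  have hiffY : IsMulCommutative ↥(conjBy A b⁻¹ ⊔ C) ↔ ⁅A, ⁅B, C⁆⁆ = ⊥ := by
    rw [commutative_sup_iff hS hYS hC, ← triangle_bot_iff hS hC h2 hAC hb hb1]
    rw [← conjBy_eq_bot (g := b), conjBy_commutator, conjBy_conjBy, mul_inv_cancel, conjBy_one]
  have hnrX := triangle_not_rankOne hS hA hC h1 hAC hb'
  have hnrY : ¬ IsRankOnePair (conjBy A b⁻¹) C := fun h => by
    have := Pair.conj h b
    rw [conjBy_conjBy, mul_inv_cancel, conjBy_one] at this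
    exact triangle_not_rankOne hS hA hC h1 hAC hb this
  have hclassX : ⁅⁅A ⊔ conjBy C b⁻¹, A ⊔ conjBy C b⁻¹⁆, A ⊔ conjBy C b⁻¹⁆ = ⊥ := by
    rcases hS.pair A hA _ hXS with h | h | h
    · have := (commutative_sup_iff hS hA hXS).2 h
      rw [Subgroup.commutator_self_eq_bot_iff.2 this, Subgroup.commutator_bot_left]
    · exact absurd h hnrX
    · exact (class_two_of_commCase hS hA hXS h).2
  have hclassY : ⁅⁅conjBy A b⁻¹ ⊔ C, conjBy A b⁻¹ ⊔ C⁆, conjBy A b⁻¹ ⊔ C⁆ = ⊥ := by
    rcases hS.pair _ hYS C hC with h | h | h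
    · have := (commutative_sup_iff hS hYS hC).2 h
      rw [Subgroup.commutator_self_eq_bot_iff.2 this, Subgroup.commutator_bot_left]
    · exact absurd h hnrY
    · exact (class_two_of_commCase hS hYS hC h).2
  have hcX : ∀ a ∈ A, ∀ x ∈ conjBy A b⁻¹ ⊔ C, a * x = x * a := by
    intro a ha
    refine forall_sup_commute (fun y hy => ?_) (commutator_eq_bot_iff_forall.1 hAC a ha)
    exact forall_sup_commute (fun a' ha' => comm_of_mem hS hA ha ha') (CommCase.comm_AC h1 a ha)
      y (CommCase.conjBy_le_line h1 hb' hy)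
  have hcY : ∀ c ∈ conjBy C b⁻¹, ∀ x ∈ conjBy A b⁻¹ ⊔ C, c * x = x * c := by
    intro c hc
    refine forall_sup_commute (fun y hy => ?_) (fun c' hc' => ?_)
    · have h0 : ⁅conjBy A b⁻¹, conjBy C b⁻¹⁆ = ⊥ := by
        rw [← conjBy_commutator, hAC, conjBy_bot]
      exact (commutator_eq_bot_iff_forall.1 h0 y hy c hc).symm
    · exact (forall_sup_commute (fun x hx => comm_of_mem hS hC hc' hx)
        (CommCase.comm_AC h2' c' hc') c (CommCase.conjBy_le_line h2' hb' hc)).symm
  have hXY : ⁅A ⊔ conjBy C b⁻¹, conjBy A b⁻¹ ⊔ C⁆ = ⊥ := by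
    refine commutator_eq_bot_iff_forall.2 fun x hx y hy => ?_
    exact ((forall_sup_commute (z := y) (fun a ha => (hcX a ha y hy).symm)
      (fun c hc => (hcY c hc y hy).symm)) x hx).symm
  have hN : (A ⊔ conjBy C b⁻¹) ⊔ (conjBy A b⁻¹ ⊔ C) = (A ⊔ ⁅A, B⁆) ⊔ (C ⊔ ⁅C, B⁆) := by
    calc (A ⊔ conjBy C b⁻¹) ⊔ (conjBy A b⁻¹ ⊔ C) = (A ⊔ conjBy A b⁻¹) ⊔ (C ⊔ conjBy C b⁻¹) := by
          ac_rfl
      _ = _ := by
          rw [CommCase.sup_conj_eq_line h1 hb' hb1', CommCase.sup_conj_eq_line h2' hb' hb1']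
  refine ⟨?_, hXY, ?_, ?_, ?_⟩
  · by_cases h : ⁅A, ⁅B, C⁆⁆ = ⊥
    · exact Or.inl ⟨hiffX.2 h, hiffY.2 h⟩
    · exact Or.inr ⟨⟨fun hh => h (hiffX.1 hh), hclassX⟩, fun hh => h (hiffY.1 hh), hclassY⟩
  · intro r hr
    rw [conjBy_eq_self_iff]
    suffices h : A ⊔ B ⊔ C ≤ Subgroup.normalizer
        (((A ⊔ conjBy C b⁻¹) ⊔ (conjBy A b⁻¹ ⊔ C) : Subgroup G) : Set G) from h hr
    refine sup_le (sup_le ?_ ?_) ?_
    · exact (le_sup_left.trans le_sup_left).trans Subgroup.le_normalizer
    · intro b0 hb0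
      rw [← conjBy_eq_self_iff, hN, conjBy_sup, CommCase.conjBy_line h1 hb0,
        CommCase.conjBy_line h2' hb0]
    · exact (le_sup_right.trans le_sup_right).trans Subgroup.le_normalizer
  · rw [hN]
    refine le_antisymm (sup_le (sup_le (sup_le ?_ ?_) (sup_le ?_ ?_)) ?_)
      (sup_le (sup_le ?_ le_sup_right) ?_)
    · exact le_sup_left.trans le_sup_left
    · refine le_trans ?_ (le_sup_left : A ⊔ B ≤ A ⊔ B ⊔ C)
      exact Subgroup.commutator_le.2 fun a ha x hx => by
        have ha' : a ∈ A ⊔ B := Subgroup.mem_sup_left ha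
        have hx' : x ∈ A ⊔ B := Subgroup.mem_sup_right hx
        rw [commutatorElement_def]
        exact mul_mem (mul_mem (mul_mem ha' hx') (inv_mem ha')) (inv_mem hx')
    · exact le_sup_right
    · exact Subgroup.commutator_le.2 fun c hc x hx => by
        have hc' : c ∈ A ⊔ B ⊔ C := Subgroup.mem_sup_right hc
        have hx' : x ∈ A ⊔ B ⊔ C := Subgroup.mem_sup_left (Subgroup.mem_sup_right hx)
        rw [commutatorElement_def]
        exact mul_mem (mul_mem (mul_mem hc' hx') (inv_mem hc')) (inv_mem hx')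
    · exact le_sup_right.trans le_sup_left
    · exact (le_sup_left.trans le_sup_left).trans le_sup_left
    · exact (le_sup_left.trans le_sup_right).trans le_sup_left
  · -- nilpotency
    set L := ⁅A, B⁆
    set M := ⁅C, B⁆
    set N := (A ⊔ L) ⊔ (C ⊔ M) with hNdef
    have hNN : ∀ u ∈ ⁅N, N⁆, ∀ v ∈ N, u * v = v * u := by
      rw [← hN]
      set X := A ⊔ conjBy C b⁻¹
      set Y := conjBy A b⁻¹ ⊔ C
      rw [commutator_eq_bot_iff_forall] at hXY hclassX hclassY
      have hQc : ∀ q ∈ ⁅X, X⁆ ⊔ ⁅Y, Y⁆, ∀ v ∈ X ⊔ Y, q * v = v * q := by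
        intro q hq v hv
        refine ((forall_sup_commute (z := v) ?_ ?_) q hq).symm
        · intro u hu
          exact ((forall_sup_commute (z := u) (hclassX u hu) fun y hy =>
            hXY u (Subgroup.commutator_le_self X hu) y hy) v hv).symm
        · intro u hu
          exact ((forall_sup_commute (z := u) (fun x hx =>
            (hXY x hx u (Subgroup.commutator_le_self Y hu)).symm) (hclassY u hu)) v hv).symm
      have hle : ⁅X ⊔ Y, X ⊔ Y⁆ ≤ ⁅X, X⁆ ⊔ ⁅Y, Y⁆ := by
        have hn : ∀ x ∈ (X : Set G) ∪ Y,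
            x ∈ Subgroup.normalizer ((⁅X, X⁆ ⊔ ⁅Y, Y⁆ : Subgroup G) : Set G) := fun x hx =>
          conjBy_eq_self_iff.1 (conjBy_of_commute fun q hq => (hQc q hq x (hx.elim
            Subgroup.mem_sup_left Subgroup.mem_sup_right)).symm)
        nth_rewrite 1 2 [Subgroup.sup_eq_closure]
        refine commutator_closure_le hn hn ?_
        rintro x (hx | hx) y (hy | hy)
        · exact Subgroup.mem_sup_left (Subgroup.commutator_mem_commutator hx hy)
        · rw [commutatorElement_eq_one_iff_commute.2 (hXY x hx y hy)]; exact one_mem _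
        · rw [commutatorElement_eq_one_iff_commute.2 (hXY y hy x hx).symm]; exact one_mem _
        · exact Subgroup.mem_sup_right (Subgroup.commutator_mem_commutator hx hy)
      exact fun u hu => hQc u (hle hu)
    -- the series
    let P₄ : Set G := (⁅L, M⁆ : Subgroup G)
    let P₃ : Set G := (⁅A, M⁆ : Subgroup G) ∪ (⁅L, C⁆ : Subgroup G) ∪ (⁅L, M⁆ : Subgroup G)
    let P₂ : Set G := (L : Set G) ∪ M ∪ P₃
    let P₁ : Set G := (A : Set G) ∪ C ∪ P₂
    let P₀ : Set G := (A : Set G) ∪ B ∪ C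
    let s : ℕ → Set G := fun i => [P₀, P₁, P₂, P₃, P₄].getD i {1}
    have hABC : A ⊔ B ⊔ C = Subgroup.closure (s 0) := by
      show A ⊔ B ⊔ C = Subgroup.closure ((A : Set G) ∪ B ∪ C)
      simp [Subgroup.closure_union, Subgroup.closure_eq]
    rw [hABC]
    have cl : ∀ {T : Set G} {x : G}, x ∈ T → x ∈ Subgroup.closure T := fun h =>
      Subgroup.subset_closure h
    have com : ∀ {T : Set G} {x y : G}, x * y = y * x → ⁅x, y⁆ ∈ Subgroup.closure T := fun h => by
      rw [commutatorElement_eq_one_iff_commute.2 h]; exact one_mem _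
    have swap : ∀ {T : Set G} {x y : G}, ⁅x, y⁆ ∈ Subgroup.closure T → ⁅y, x⁆ ∈ Subgroup.closure T :=
      fun h => by rw [← commutatorElement_inv]; exact inv_mem h
    have comAC := commutator_eq_bot_iff_forall.1 hAC
    have hLM4 : ∀ u ∈ ⁅L, M⁆, ∀ g ∈ P₀, u * g = g * u := by
      rintro u hu g ((hg | hg) | hg)
      · exact hNN u (Subgroup.commutator_mono (le_sup_right.trans le_sup_left)
          (le_sup_right.trans le_sup_right) hu) g (Subgroup.mem_sup_left (Subgroup.mem_sup_left hg))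
      · refine (show Commute g u from ?_).symm
        have hL : L ≤ Subgroup.centralizer {g} := fun l hl =>
          Subgroup.mem_centralizer_singleton_iff.2 (by simpa using CommCase.comm_right h1 hl hg)
        have hM' : M ≤ Subgroup.centralizer {g} := fun m hm =>
          Subgroup.mem_centralizer_singleton_iff.2 (by simpa using CommCase.comm_right h2' hm hg)
        exact (Subgroup.mem_centralizer_singleton_iff.1
          (((Subgroup.commutator_mono hL hM').trans (Subgroup.commutator_le_self _)) hu)).symm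
      · exact hNN u (Subgroup.commutator_mono (le_sup_right.trans le_sup_left)
          (le_sup_right.trans le_sup_right) hu) g (Subgroup.mem_sup_right (Subgroup.mem_sup_left hg))
    have hin3 : ∀ u ∈ P₃, u ∈ ⁅N, N⁆ := by
      rintro u ((hu | hu) | hu)
      · exact Subgroup.commutator_mono (le_sup_left.trans le_sup_left)
          (le_sup_right.trans le_sup_right) hu
      · exact Subgroup.commutator_mono (le_sup_right.trans le_sup_left)
          (le_sup_left.trans le_sup_right) hu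
      · exact Subgroup.commutator_mono (le_sup_right.trans le_sup_left)
          (le_sup_right.trans le_sup_right) hu
    have h34 : ∀ u ∈ P₃, ∀ g ∈ P₀, ⁅u, g⁆ ∈ Subgroup.closure P₄ := by
      rintro u hu g ((hg | hg) | hg)
      · exact com (hNN u (hin3 u hu) g (Subgroup.mem_sup_left (Subgroup.mem_sup_left hg)))
      · -- conjugation by `g ∈ B` fixes `⁅A, M⁆` and `⁅L, C⁆` modulo `⁅L, M⁆`
        suffices h : g * u * g⁻¹ * u⁻¹ ∈ Subgroup.closure P₄ from swap h
        have key : ∀ x ∈ (A : Set G) ∪ L, ∀ y ∈ (C : Set G) ∪ M, (x ∈ L ∨ y ∈ M) →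
            g * ⁅x, y⁆ * g⁻¹ * ⁅x, y⁆⁻¹ ∈ Subgroup.closure P₄ := by
          intro x hx y hy hxy
          obtain ⟨l, hl, hgx⟩ : ∃ l ∈ L, g * x * g⁻¹ = x * l ∧ (x ∈ L → l = 1) := by
            by_cases hxL : x ∈ L
            · exact ⟨1, one_mem _, by rw [← CommCase.comm_right h1 hxL hg]; group, fun _ => rfl⟩
            · exact ⟨_, inv_mem (Subgroup.commutator_mem_commutator (hx.resolve_right hxL) hg),
                CommCase.conj_eq_mul h1 (hx.resolve_right hxL) hg, fun h => absurd h hxL⟩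
          obtain ⟨m, hm, hgy⟩ : ∃ m ∈ M, g * y * g⁻¹ = y * m ∧ (y ∈ M → m = 1) := by
            by_cases hyM : y ∈ M
            · exact ⟨1, one_mem _, by rw [← CommCase.comm_right h2' hyM hg]; group, fun _ => rfl⟩
            · exact ⟨_, inv_mem (Subgroup.commutator_mem_commutator (hy.resolve_right hyM) hg),
                CommCase.conj_eq_mul h2' (hy.resolve_right hyM) hg, fun h => absurd h hyM⟩
          have hxN : x ∈ N := Subgroup.mem_sup_left
            (hx.elim Subgroup.mem_sup_left Subgroup.mem_sup_right)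
          have hyN : y ∈ N := Subgroup.mem_sup_right
            (hy.elim Subgroup.mem_sup_left Subgroup.mem_sup_right)
          have hcj : g * ⁅x, y⁆ * g⁻¹ = ⁅x * l, y * m⁆ := by
            rw [conjugate_commutatorElement, hgx.1, hgy.1]
          rw [hcj]
          rcases hxy with hxL | hyM
          · rw [hgx.2 hxL, mul_one]
            have : ⁅x, y * m⁆ = ⁅x, y⁆ * (y * ⁅x, m⁆ * y⁻¹) := by
              simp only [commutatorElement_def]; group
            have hmN : m ∈ N := Subgroup.mem_sup_right (Subgroup.mem_sup_right hm)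
            rw [this, ← hNN _ (Subgroup.commutator_mem_commutator hxN hmN) y hyN,
              mul_inv_cancel_right,
              hNN _ (Subgroup.commutator_mem_commutator hxN hyN) _
                (Subgroup.commutator_le_self N (Subgroup.commutator_mem_commutator hxN hmN)),
              mul_inv_cancel_right]
            exact cl (Subgroup.commutator_mem_commutator hxL hm)
          · rw [hgy.2 hyM, mul_one]
            have : ⁅x * l, y⁆ = (x * ⁅l, y⁆ * x⁻¹) * ⁅x, y⁆ := by
              simp only [commutatorElement_def]; group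
            have hlN : l ∈ N := Subgroup.mem_sup_left (Subgroup.mem_sup_right hl)
            rw [this, ← hNN _ (Subgroup.commutator_mem_commutator hlN hyN) x hxN,
              mul_inv_cancel_right, mul_inv_cancel_right]
            exact cl (Subgroup.commutator_mem_commutator hl hyM)
        have main : ∀ P Q : Subgroup G, (∀ x ∈ P, x ∈ (A : Set G) ∪ L) →
            (∀ y ∈ Q, y ∈ (C : Set G) ∪ M) → (∀ x ∈ P, ∀ y ∈ Q, x ∈ L ∨ y ∈ M) →
            ∀ u ∈ ⁅P, Q⁆, g * u * g⁻¹ * u⁻¹ ∈ Subgroup.closure P₄ := by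
          intro P Q hP hQ hPQ u hu
          rw [Subgroup.commutator_def] at hu
          have hc4 : ∀ q ∈ Subgroup.closure P₄, ∀ z ∈ N, q * z = z * q := by
            intro q hq
            refine hNN q ?_
            have : Subgroup.closure P₄ ≤ ⁅N, N⁆ := (Subgroup.closure_le _).2 fun x hx =>
              hin3 x (Or.inr hx)
            exact this hq
          induction hu using Subgroup.closure_induction with
          | mem z hz =>
            obtain ⟨x, hx, y, hy, rfl⟩ := hz
            exact key x (hP x hx) y (hQ y hy) (hPQ x hx y hy)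
          | one => simp
          | mul v w hv _ ihv ihw =>
            have hvN : v ∈ N := by
              refine Subgroup.commutator_le_self N (Subgroup.commutator_mono ?_ ?_
                (Subgroup.commutator_def P Q ▸ hv))
              · exact fun x hx => Subgroup.mem_sup_left
                  ((hP x hx).elim Subgroup.mem_sup_left Subgroup.mem_sup_right)
              · exact fun y hy => Subgroup.mem_sup_right
                  ((hQ y hy).elim Subgroup.mem_sup_left Subgroup.mem_sup_right)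
            have e : g * (v * w) * g⁻¹ * (v * w)⁻¹ =
                (g * v * g⁻¹ * v⁻¹) * (v * (g * w * g⁻¹ * w⁻¹) * v⁻¹) := by group
            rw [e, ← hc4 _ ihw v hvN, mul_inv_cancel_right]
            exact mul_mem ihv ihw
          | inv v hv ihv =>
            have hvN : v ∈ N := by
              refine Subgroup.commutator_le_self N (Subgroup.commutator_mono ?_ ?_
                (Subgroup.commutator_def P Q ▸ hv))
              · exact fun x hx => Subgroup.mem_sup_left
                  ((hP x hx).elim Subgroup.mem_sup_left Subgroup.mem_sup_right)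
              · exact fun y hy => Subgroup.mem_sup_right
                  ((hQ y hy).elim Subgroup.mem_sup_left Subgroup.mem_sup_right)
            have e : g * v⁻¹ * g⁻¹ * (v⁻¹)⁻¹ = v⁻¹ * (g * v * g⁻¹ * v⁻¹)⁻¹ * v := by group
            rw [e, mul_assoc, hc4 _ (inv_mem ihv) v hvN, inv_mul_cancel_left]
            exact inv_mem ihv
        rcases hu with (hu | hu) | hu
        · exact main A M (fun x hx => Or.inl hx) (fun y hy => Or.inr hy)
            (fun x _ y hy => Or.inr hy) u hu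
        · exact main L C (fun x hx => Or.inr hx) (fun y hy => Or.inl hy)
            (fun x hx y _ => Or.inl hx) u hu
        · exact main L M (fun x hx => Or.inr hx) (fun y hy => Or.inr hy)
            (fun x hx y _ => Or.inl hx) u hu
      · exact com (hNN u (hin3 u hu) g (Subgroup.mem_sup_right (Subgroup.mem_sup_left hg)))
    refine isNilpotent_of_gen_series 5 s (fun x hx => hx) ?_ ?_
    · intro i hi x hx
      obtain rfl | rfl | rfl | rfl | rfl : i = 0 ∨ i = 1 ∨ i = 2 ∨ i = 3 ∨ i = 4 := by omega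
      · skip
        change x ∈ Subgroup.closure P₀
        have hA0 : A ≤ Subgroup.closure P₀ := fun y hy => cl (Or.inl (Or.inl hy))
        have hB0 : B ≤ Subgroup.closure P₀ := fun y hy => cl (Or.inl (Or.inr hy))
        have hC0 : C ≤ Subgroup.closure P₀ := fun y hy => cl (Or.inr hy)
        have hc : ∀ {U V : Subgroup G}, U ≤ Subgroup.closure P₀ → V ≤ Subgroup.closure P₀ →
            ⁅U, V⁆ ≤ Subgroup.closure P₀ := fun hU hV =>
          (Subgroup.commutator_mono hU hV).trans (Subgroup.commutator_le_self _)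
        rcases hx with (hx | hx) | ((hx | hx) | ((hx | hx) | hx))
        exacts [hA0 hx, hC0 hx, hc hA0 hB0 hx, hc hC0 hB0 hx, hc hA0 (hc hC0 hB0) hx,
          hc (hc hA0 hB0) hC0 hx, hc (hc hA0 hB0) (hc hC0 hB0) hx]
      · exact cl (Or.inr hx)
      · exact cl (Or.inr hx)
      · exact cl (Or.inr hx)
      · obtain rfl : x = 1 := hx; exact one_mem _
    · intro i hi x hx g hg
      obtain rfl | rfl | rfl | rfl | rfl : i = 0 ∨ i = 1 ∨ i = 2 ∨ i = 3 ∨ i = 4 := by omega
      · skip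
        show ⁅x, g⁆ ∈ Subgroup.closure P₁
        rcases hx with (hx | hx) | hx <;> rcases hg with (hg | hg) | hg
        · exact com (comm_of_mem hS hA hx hg)
        · exact cl (Or.inr (Or.inl (Or.inl (Subgroup.commutator_mem_commutator hx hg))))
        · exact com (comAC x hx g hg)
        · exact swap (cl (Or.inr (Or.inl (Or.inl (Subgroup.commutator_mem_commutator hg hx)))))
        · exact com (comm_of_mem hS _hB hx hg)
        · exact swap (cl (Or.inr (Or.inl (Or.inr (Subgroup.commutator_mem_commutator hg hx)))))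
        · exact com (comAC g hg x hx).symm
        · exact cl (Or.inr (Or.inl (Or.inr (Subgroup.commutator_mem_commutator hx hg))))
        · exact com (comm_of_mem hS hC hx hg)
      · skip
        show ⁅x, g⁆ ∈ Subgroup.closure P₂
        have h2' := CommCase.symm h2
        rcases hx with (hx | hx) | ((hx | hx) | hx)
        · rcases hg with (hg | hg) | hg
          exacts [com (comm_of_mem hS hA hx hg),
            cl (Or.inl (Or.inl (Subgroup.commutator_mem_commutator hx hg))), com (comAC x hx g hg)]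
        · rcases hg with (hg | hg) | hg
          exacts [com (comAC g hg x hx).symm,
            cl (Or.inl (Or.inr (Subgroup.commutator_mem_commutator hx hg))),
            com (comm_of_mem hS hC hx hg)]
        · rcases hg with (hg | hg) | hg
          exacts [com (CommCase.comm_left h1 hx hg), com (CommCase.comm_right h1 hx hg),
            cl (Or.inr (Or.inl (Or.inr (Subgroup.commutator_mem_commutator hx hg))))]
        · rcases hg with (hg | hg) | hg
          exacts [swap (cl (Or.inr (Or.inl (Or.inl (Subgroup.commutator_mem_commutator hg hx))))),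
            com (CommCase.comm_right h2' hx hg), com (CommCase.comm_left h2' hx hg)]
        · exact Subgroup.closure_mono (fun y hy => Or.inr (Or.inr hy)) (h34 x hx g hg)
      · skip
        show ⁅x, g⁆ ∈ Subgroup.closure P₃
        have h2' := CommCase.symm h2
        rcases hx with (hx | hx) | hx
        · rcases hg with (hg | hg) | hg
          exacts [com (CommCase.comm_left h1 hx hg), com (CommCase.comm_right h1 hx hg),
            cl (Or.inl (Or.inr (Subgroup.commutator_mem_commutator hx hg)))]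
        · rcases hg with (hg | hg) | hg
          exacts [swap (cl (Or.inl (Or.inl (Subgroup.commutator_mem_commutator hg hx)))),
            com (CommCase.comm_right h2' hx hg), com (CommCase.comm_left h2' hx hg)]
        · exact Subgroup.closure_mono (fun y hy => Or.inr hy) (h34 x hx g hg)
      · exact h34 x hx g hg
      · exact com (hLM4 x hx g hg)

end Triangle

/-! ### The opposite configuration: the rank one group acting on `A ⊔ C` -/

section Opposite

variable {A B D : Subgroup G}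

theorem opposite_config (hS : IsRootSubgroupSet S) (hA : A ∈ S) (hB : B ∈ S) (hD : D ∈ S)
    (h1 : RootCommutatorCase S A B) (h2 : RootCommutatorCase S D ⁅A, B⁆)
    (hDC : ⁅D, ⁅A, B⁆⁆ = A) :
    IsRankOnePair B D ∧
    {E | ∃ x ∈ B ⊔ D, E = conjBy A x} = {E | ∃ x ∈ B ⊔ D, E = conjBy ⁅A, B⁆ x} ∧
    {E | ∃ x ∈ B ⊔ D, E = conjBy A x} =
      (fun b : G => conjBy A b) '' (B : Set G) ∪ {⁅A, B⁆} ∧
    {E | ∃ x ∈ B ⊔ D, E = conjBy A x} =
      (fun d : G => conjBy ⁅A, B⁆ d) '' (D : Set G) ∪ {A} ∧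
    IsSubgroupPartition (A ⊔ ⁅A, B⁆) {E | ∃ x ∈ B ⊔ D, E = conjBy A x} ∧
    ∀ x ∈ (B ⊔ D) ⊓ Subgroup.centralizer ((A ⊔ ⁅A, B⁆ : Subgroup G) : Set G),
      ∀ y ∈ B ⊔ D, x * y = y * x := by
  have hr := opposite_rankOne hS hA hB hD h1 h2 hDC
  have hBsym := CommCase.symm h1
  have hBA : ⁅B, A⁆ = ⁅A, B⁆ := Subgroup.commutator_comm B A
  have hDA : ∀ d ∈ D, ∀ a ∈ A, d * a = a * d := fun d hd a ha =>
    (CommCase.comm_left h2 (hDC.symm ▸ ha) hd).symm
  have hBC : ∀ c ∈ ⁅A, B⁆, ∀ b ∈ B, c * b = b * c := fun c hc b hb => CommCase.comm_right h1 hc hb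
  have hA1 : ∀ z ∈ A, (∀ b ∈ B, z * b = b * z) → z = 1 := by
    intro z hz hzB
    obtain ⟨d, hd, hd1⟩ := exists_ne_one_of_mem hS hD
    obtain ⟨c, hc, he⟩ := CommCase.exists_commutator_eq h2 hd hd1 (c := z⁻¹)
      (by rw [hDC]; exact inv_mem hz)
    refine (eq_of_centralizer_mul_mem hS hD hB (hS.conj_mem D hD c) (RankOnePair_symm hr)
      (fun x hx => (hDA x hx z hz).symm) hzB hd hd1 ?_).2
    rw [← hDA d hd z hz]
    have : d * z = c * d * c⁻¹ := by rw [CommCase.conj_eq_mul h2 hd hc, he, inv_inv]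
    rw [this]
    exact conj_mem_conjBy c hd
  have hC1 : ∀ z ∈ ⁅A, B⁆, (∀ d ∈ D, z * d = d * z) → z = 1 := by
    intro z hz hzD
    obtain ⟨b, hb, hb1⟩ := exists_ne_one_of_mem hS hB
    obtain ⟨a, ha, he⟩ := CommCase.exists_commutator_eq hBsym hb hb1 (c := z⁻¹)
      (by rw [hBA]; exact inv_mem hz)
    refine (eq_of_centralizer_mul_mem hS hB hD (hS.conj_mem B hB a) hr
      (fun x hx => hBC z hz x hx) hzD hb hb1 ?_).2
    rw [hBC z hz b hb]
    have : b * z = a * b * a⁻¹ := by rw [CommCase.conj_eq_mul hBsym hb ha, he, inv_inv]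
    rw [this]
    exact conj_mem_conjBy a hb
  set N := A ⊔ ⁅A, B⁆
  let Fx : Subgroup G → Subgroup G := fun F => N ⊓ Subgroup.centralizer (F : Set G)
  have hdec : ∀ x ∈ N, ∃ a ∈ A, ∃ c ∈ ⁅A, B⁆, x = a * c := fun x hx =>
    mem_sup_of_comm (CommCase.comm_AC h1) hx
  have hFB : Fx B = ⁅A, B⁆ := by
    refine le_antisymm ?_ (le_inf le_sup_right fun c hc =>
      Subgroup.mem_centralizer_iff.2 fun b hb => (hBC c hc b hb).symm)
    rintro x ⟨hx, hxB⟩
    obtain ⟨a, ha, c, hc, rfl⟩ := hdec x hx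
    have : a = 1 := hA1 a ha fun b hb => by
      have h := (Subgroup.mem_centralizer_iff.1 hxB b hb).symm
      have hcb := hBC c hc b hb
      apply mul_right_cancel (b := c)
      calc a * b * c = a * (c * b) := by rw [mul_assoc, hcb]
        _ = b * a * c := by rw [← mul_assoc, h, ← mul_assoc]
    simpa [this] using hc
  have hFD : Fx D = A := by
    refine le_antisymm ?_ (le_inf le_sup_left fun a ha =>
      Subgroup.mem_centralizer_iff.2 fun d hd => hDA d hd a ha)
    rintro x ⟨hx, hxD⟩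
    obtain ⟨a, ha, c, hc, rfl⟩ := hdec x hx
    have : c = 1 := hC1 c hc fun d hd => by
      have h := (Subgroup.mem_centralizer_iff.1 hxD d hd).symm
      apply mul_left_cancel (a := a)
      calc a * (c * d) = d * (a * c) := by rw [← mul_assoc]; exact h
        _ = a * (d * c) := by rw [← mul_assoc, hDA d hd a ha, mul_assoc]
    simpa [this] using ha
  have hNle : B ⊔ D ≤ Subgroup.normalizer (N : Set G) := by
    refine sup_le (fun b hb => conjBy_eq_self_iff.1 (CommCase.conjBy_line h1 hb)) fun d hd => ?_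
    have key : ∀ d ∈ D, conjBy N d ≤ N := by
      intro d hd
      refine sup_normalizes (le_of_eq_of_le (conjBy_of_commute (hDA d hd)) le_sup_left) ?_
      intro x hx
      obtain ⟨c, hc, rfl⟩ : ∃ c ∈ ⁅A, B⁆, d * c * d⁻¹ = x := ⟨_, mem_conjBy.1 hx, by group⟩
      have : d * c * d⁻¹ = ⁅d, c⁆ * c := by simp only [commutatorElement_def]; group
      rw [this]
      refine mul_mem (Subgroup.mem_sup_left ?_) (Subgroup.mem_sup_right hc)
      rw [← hDC]; exact Subgroup.commutator_mem_commutator hd hc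
    refine conjBy_eq_self_iff.1 (le_antisymm (key d hd) ?_)
    have := (conjBy_le_iff (g := d)).2 (key d⁻¹ (inv_mem hd))
    rwa [conjBy_conjBy, mul_inv_cancel, conjBy_one] at this
  have hequiv : ∀ F : Subgroup G, ∀ x ∈ B ⊔ D, conjBy (Fx F) x = Fx (conjBy F x) := by
    intro F x hx
    have hxN := conjBy_eq_self_iff.2 (hNle hx)
    ext y
    simp only [Fx, mem_conjBy, Subgroup.mem_inf, Subgroup.mem_centralizer_iff]
    refine and_congr ?_ ⟨fun h f hf => ?_, fun h f hf => ?_⟩
    · rw [← mem_conjBy, hxN]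
    · have h' := h _ (mem_conjBy.1 hf)
      calc f * y = x * ((x⁻¹ * f * x) * (x⁻¹ * y * x)) * x⁻¹ := by group
        _ = x * ((x⁻¹ * y * x) * (x⁻¹ * f * x)) * x⁻¹ := by rw [h']
        _ = y * f := by group
    · have h' := h _ (conj_mem_conjBy x hf)
      calc f * (x⁻¹ * y * x) = x⁻¹ * ((x * f * x⁻¹) * y) * x := by group
        _ = x⁻¹ * (y * (x * f * x⁻¹)) * x := by rw [h']
        _ = x⁻¹ * y * x * f := by group
  have hDΩ := Pair.right_mem_unipotents hr
  have hBΩ : B ∈ unipotentSubgroups B D := Pair.left_mem_unipotents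
  have horb : {E | ∃ x ∈ B ⊔ D, E = conjBy A x} = Fx '' unipotentSubgroups B D := by
    ext E
    constructor
    · rintro ⟨x, hx, rfl⟩
      exact ⟨conjBy D x, Pair.unip_invariant hDΩ hx, by rw [← hequiv D x hx, hFD]⟩
    · rintro ⟨F, hF, rfl⟩
      obtain ⟨y, hy, hDy⟩ := id hDΩ
      obtain ⟨x, hx, rfl⟩ := hF
      refine ⟨x * y⁻¹, mul_mem hx (inv_mem hy), ?_⟩
      rw [← hFD, hequiv _ _ (mul_mem hx (inv_mem hy)), hDy, conjBy_conjBy, inv_mul_cancel_right]
  have horbC : {E | ∃ x ∈ B ⊔ D, E = conjBy ⁅A, B⁆ x} = Fx '' unipotentSubgroups B D := by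
    ext E
    constructor
    · rintro ⟨x, hx, rfl⟩
      exact ⟨conjBy B x, ⟨x, hx, rfl⟩, by rw [← hequiv B x hx, hFB]⟩
    · rintro ⟨F, ⟨x, hx, rfl⟩, rfl⟩
      exact ⟨x, hx, by rw [← hequiv B x hx, hFB]⟩
  have h3 : {E | ∃ x ∈ B ⊔ D, E = conjBy A x} =
      (fun b : G => conjBy A b) '' (B : Set G) ∪ {⁅A, B⁆} := by
    rw [horb]
    ext E
    constructor
    · rintro ⟨F, hF, rfl⟩
      rcases Pair.unip_cases hr hF with rfl | ⟨b, hb, rfl⟩
      · exact Or.inr hFB
      · exact Or.inl ⟨b, hb, by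
          show conjBy A b = Fx (conjBy D b)
          rw [← hequiv D b (Subgroup.mem_sup_left hb), hFD]⟩
    · rintro (⟨b, hb, rfl⟩ | rfl)
      · exact ⟨conjBy D b, Pair.unip_invariant hDΩ (Subgroup.mem_sup_left hb), by
          rw [← hequiv D b (Subgroup.mem_sup_left hb), hFD]⟩
      · exact ⟨B, hBΩ, hFB⟩
  have h4 : {E | ∃ x ∈ B ⊔ D, E = conjBy A x} =
      (fun d : G => conjBy ⁅A, B⁆ d) '' (D : Set G) ∪ {A} := by
    rw [horb]
    ext E
    constructor
    · rintro ⟨F, hF, rfl⟩
      rw [← Pair.unipotents_eq_of_ne hr hDΩ hBΩ hr.ne.symm] at hF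
      rcases Pair.unip_cases (RankOnePair_symm hr) hF with rfl | ⟨d, hd, rfl⟩
      · exact Or.inr hFD
      · exact Or.inl ⟨d, hd, by
          show conjBy ⁅A, B⁆ d = Fx (conjBy B d)
          rw [← hequiv B d (Subgroup.mem_sup_right hd), hFB]⟩
    · rintro (⟨d, hd, rfl⟩ | rfl)
      · exact ⟨conjBy B d, Pair.unip_invariant hBΩ (Subgroup.mem_sup_right hd), by
          rw [← hequiv B d (Subgroup.mem_sup_right hd), hFB]⟩
      · exact ⟨D, hDΩ, hFD⟩
  have hinj : ∀ F ∈ unipotentSubgroups B D, ∀ F' ∈ unipotentSubgroups B D, F ≠ F' →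
      ∀ x ∈ Fx F, x ∈ Fx F' → x = 1 := by
    intro F hF F' hF' hne x hx hx'
    have hs := Pair.sup_eq_of_ne hr hF hF' hne
    have hall : ∀ y ∈ B ⊔ D, x * y = y * x := fun y hy => forall_sup_commute
      (fun f hf => (Subgroup.mem_centralizer_iff.1 hx.2 f hf).symm)
      (fun f hf => (Subgroup.mem_centralizer_iff.1 hx'.2 f hf).symm) y (hs.symm ▸ hy)
    have hxC : x ∈ ⁅A, B⁆ := hFB ▸ (⟨hx.1, Subgroup.mem_centralizer_iff.2 fun b hb =>
      (hall b (Subgroup.mem_sup_left hb)).symm⟩ : x ∈ Fx B)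
    exact hC1 x hxC fun d hd => hall d (Subgroup.mem_sup_right hd)
  refine ⟨hr, horb.trans horbC.symm, h3, h4, ?_, ?_⟩
  · refine ⟨?_, ?_, ?_⟩
    · rw [horb]; rintro _ ⟨F, -, rfl⟩; exact inf_le_left
    · intro x hx _
      rw [h3]
      obtain ⟨a, ha, c, hc, rfl⟩ := hdec x hx
      by_cases ha1 : a = 1
      · exact ⟨_, Or.inr rfl, by simpa [ha1] using hc⟩
      · obtain ⟨b, hb, he⟩ := CommCase.exists_conj_mem h1 ha ha1 hc
        exact ⟨_, Or.inl ⟨b, hb, rfl⟩, he ▸ conj_mem_conjBy b ha⟩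
    · rw [horb]
      rintro _ ⟨F, hF, rfl⟩ _ ⟨F', hF', rfl⟩ hne
      rw [eq_bot_iff]
      rintro x ⟨hx, hx'⟩
      exact Subgroup.mem_bot.2 (hinj F hF F' hF' (fun h => hne (by rw [h])) x hx hx')
  · intro x hx
    set K := (B ⊔ D) ⊓ Subgroup.centralizer (N : Set G)
    have hKn : ∀ g ∈ B ⊔ D, ∀ k ∈ K, g * k * g⁻¹ ∈ K := by
      rintro g hg k ⟨hk, hk'⟩
      refine ⟨(B ⊔ D).mul_mem ((B ⊔ D).mul_mem hg hk) ((B ⊔ D).inv_mem hg),
        Subgroup.mem_centralizer_iff.2 fun n hn => ?_⟩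
      have hn' : g⁻¹ * n * g ∈ N :=
        mem_conjBy.1 (by rw [conjBy_eq_self_iff.2 (hNle hg)]; exact hn)
      have h' := Subgroup.mem_centralizer_iff.1 hk' _ hn'
      calc n * (g * k * g⁻¹) = g * ((g⁻¹ * n * g) * k) * g⁻¹ := by group
        _ = g * (k * (g⁻¹ * n * g)) * g⁻¹ := by rw [h']
        _ = g * k * g⁻¹ * n := by group
    rcases Pair.dichotomy hr (inf_le_left : K ≤ B ⊔ D) hKn with h | h
    · exfalso
      have hfixC : K ⊔ B ≤ Subgroup.normalizer ((⁅A, B⁆ : Subgroup G) : Set G) := by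
        refine sup_le (fun k hk => conjBy_eq_self_iff.1 (conjBy_of_commute fun c hc => ?_))
          fun b hb => conjBy_eq_self_iff.1 (conjBy_of_commute fun c hc => (hBC c hc b hb).symm)
        exact (Subgroup.mem_centralizer_iff.1 hk.2 c (Subgroup.mem_sup_right hc)).symm
      obtain ⟨d, hd, hd1⟩ := exists_ne_one_of_mem hS hD
      have hfix := conjBy_eq_self_iff.2 (hfixC (h (Subgroup.mem_sup_right hd)))
      rw [← hFB, hequiv B d (Subgroup.mem_sup_right hd)] at hfix
      obtain ⟨c, hc, hc1⟩ := exists_ne_one_of_mem hS h1.1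
      have hne : conjBy B d ≠ B := fun he =>
        hd1 (Pair.eq_one_of_normalizes (RankOnePair_symm hr) hd he)
      exact hc1 (hinj _ (Pair.unip_invariant hBΩ (Subgroup.mem_sup_right hd)) _ hBΩ hne c
        (hfix.symm ▸ hFB.symm ▸ hc) (hFB.symm ▸ hc))
    · exact h x hx

end Opposite

end Cfsg.Agent.RootSub
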