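import Cfsg.Agent.RootSub.Basic

/-! Lines `A ⊔ [A, B]` attached to a commutator pair, and related configurations. -/

set_option autoImplicit false

namespace Cfsg.Agent.RootSub

open Cfsg
open scoped commutatorElement

variable {G : Type*} [Group G] {S : Set (Subgroup G)}

/-- Product decomposition of the join of two elementwise commuting subgroups. -/
theorem mem_sup_of_comm {A C : Subgroup G} (h : ∀ a ∈ A, ∀ c ∈ C, a * c = c * a) {x : G}
    (hx : x ∈ A ⊔ C) : ∃ a ∈ A, ∃ c ∈ C, x = a * c := by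
  rw [Subgroup.sup_eq_closure] at hx
  induction hx using Subgroup.closure_induction with
  | mem y hy =>
    rcases hy with hy | hy
    · exact ⟨y, hy, 1, one_mem _, (mul_one y).symm⟩
    · exact ⟨1, one_mem _, y, hy, (one_mul y).symm⟩
  | one => exact ⟨1, one_mem _, 1, one_mem _, (mul_one 1).symm⟩
  | mul y z _ _ hy hz =>
    obtain ⟨a, ha, c, hc, rfl⟩ := hy
    obtain ⟨a', ha', c', hc', rfl⟩ := hz
    refine ⟨a * a', mul_mem ha ha', c * c', mul_mem hc hc', ?_⟩
    calc a * c * (a' * c') = a * (c * a') * c' := by group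
      _ = a * (a' * c) * c' := by rw [h a' ha' c hc]
      _ = a * a' * (c * c') := by group
  | inv y _ hy =>
    obtain ⟨a, ha, c, hc, rfl⟩ := hy
    exact ⟨a⁻¹, inv_mem ha, c⁻¹, inv_mem hc, by
      rw [mul_inv_rev, h a⁻¹ (inv_mem ha) c⁻¹ (inv_mem hc)]⟩

namespace CommCase

variable {A B : Subgroup G}

theorem comm_AC (h : RootCommutatorCase S A B) : ∀ a ∈ A, ∀ c ∈ ⁅A, B⁆, a * c = c * a :=
  fun _ ha _ hc => (comm_left h hc ha).symm

theorem commutator_mul_left (h : RootCommutatorCase S A B) {a a' b : G} (ha : a ∈ A)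
    (ha' : a' ∈ A) (hb : b ∈ B) : ⁅a * a', b⁆ = ⁅a, b⁆ * ⁅a', b⁆ := by
  have h1 := comm_left h (Subgroup.commutator_mem_commutator ha' hb) ha
  calc ⁅a * a', b⁆ = (a * ⁅a', b⁆ * a⁻¹) * ⁅a, b⁆ := by simp only [commutatorElement_def]; group
    _ = ⁅a', b⁆ * ⁅a, b⁆ := by rw [← h1, mul_inv_cancel_right]
    _ = ⁅a, b⁆ * ⁅a', b⁆ := h.2.1 _ (Subgroup.commutator_mem_commutator ha' hb) _ (by
        simpa [commutatorElement_def] using mul_mem (mul_mem (mul_mem (Subgroup.mem_sup_left ha)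
          (Subgroup.mem_sup_right hb)) (inv_mem (Subgroup.mem_sup_left ha : a ∈ A ⊔ B)))
          (inv_mem (Subgroup.mem_sup_right hb : b ∈ A ⊔ B)))

theorem commutator_inv_left (h : RootCommutatorCase S A B) {a b : G} (ha : a ∈ A) (hb : b ∈ B) :
    ⁅a⁻¹, b⁆ = ⁅a, b⁆⁻¹ := by
  refine (inv_eq_of_mul_eq_one_right ?_).symm
  rw [← commutator_mul_left h ha (inv_mem ha) hb, mul_inv_cancel, commutatorElement_one_left]

/-- For fixed `b`, every element of `[A, B]` is `[a, b]`. -/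
theorem exists_commutator_eq' (h : RootCommutatorCase S A B) {b : G} (hb : b ∈ B) (hb1 : b ≠ 1)
    {c : G} (hc : c ∈ ⁅A, B⁆) : ∃ a ∈ A, ⁅a, b⁆ = c := by
  obtain ⟨a, ha, he⟩ := exists_commutator_eq (symm h) hb hb1
    (c := c⁻¹) (by rw [Subgroup.commutator_comm]; exact inv_mem hc)
  exact ⟨a, ha, by rw [← commutatorElement_inv, he, inv_inv]⟩

theorem conj_eq_mul (h : RootCommutatorCase S A B) {a b : G} (ha : a ∈ A) (hb : b ∈ B) :
    b * a * b⁻¹ = a * ⁅a, b⁆⁻¹ := by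
  rw [← commutator_inv_left h ha hb]
  simp only [commutatorElement_def]; group

theorem conjBy_le_line (h : RootCommutatorCase S A B) {b : G} (hb : b ∈ B) :
    conjBy A b ≤ A ⊔ ⁅A, B⁆ := by
  rintro x hx
  obtain ⟨a, ha, rfl⟩ : ∃ a ∈ A, b * a * b⁻¹ = x :=
    ⟨_, mem_conjBy.1 hx, by group⟩
  rw [conj_eq_mul h ha hb]
  exact mul_mem (Subgroup.mem_sup_left ha)
    (Subgroup.mem_sup_right (inv_mem (Subgroup.commutator_mem_commutator ha hb)))

/-- Every element of the line outside `[A, B]` lies in a conjugate of `A` under `B`. -/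
theorem exists_conj_mem (h : RootCommutatorCase S A B) {a c : G} (ha : a ∈ A) (ha1 : a ≠ 1)
    (hc : c ∈ ⁅A, B⁆) : ∃ b ∈ B, a * c = b * a * b⁻¹ := by
  obtain ⟨b, hb, he⟩ := exists_commutator_eq h ha ha1 (inv_mem hc)
  exact ⟨b, hb, by rw [conj_eq_mul h ha hb, he, inv_inv]⟩

/-- A member contained in `[A, B]` is `[A, B]` itself. -/
theorem eq_of_le_commutator (hS : IsRootSubgroupSet S) (hA : A ∈ S) {D : Subgroup G} (hD : D ∈ S)
    (hr : IsRankOnePair A D) (h : RootCommutatorCase S A B) {E : Subgroup G} (hE : E ∈ S)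
    (hle : E ≤ ⁅A, B⁆) : E = ⁅A, B⁆ := by
  have hcD : ∀ c ∈ ⁅A, B⁆, (∀ d ∈ D, c * d = d * c) → c = 1 := by
    intro c hc hcd
    obtain ⟨a, ha, ha1⟩ := exists_ne_one_of_mem hS hA
    obtain ⟨b, hb, he⟩ := exists_conj_mem h ha ha1 hc
    refine (eq_of_centralizer_mul_mem hS hA hD (hS.conj_mem A hA b) hr
      (fun x hx => comm_left h hc hx) hcd ha ha1 ?_).2
    rw [comm_left h hc ha, he]
    exact conj_mem_conjBy b ha
  obtain ⟨e, he, he1⟩ := exists_ne_one_of_mem hS hE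
  have hcase : ∀ F ∈ S, F ≤ ⁅A, B⁆ → IsRankOnePair F D ∨ RootCommutatorCase S F D := by
    intro F hF hFle
    rcases hS.pair F hF D hD with h0 | h0 | h0
    · obtain ⟨f, hf, hf1⟩ := exists_ne_one_of_mem hS hF
      exact absurd (hcD f (hFle hf) (commutator_eq_bot_iff_forall.1 h0 f hf)) hf1
    · exact Or.inl h0
    · exact Or.inr h0
  rcases hcase E hE hle with hED | hED
  · exact (eq_of_inter hS hE hD h.1 hED he (hle he) he1).symm
  rcases hcase _ h.1 le_rfl with hCD | hCD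
  · exact eq_of_inter hS h.1 hD hE hCD (hle he) he he1
  refine le_antisymm hle fun c hc => ?_
  by_cases hc1 : c = 1
  · rw [hc1]; exact one_mem _
  obtain ⟨d, hd, hd1⟩ := exists_ne_one_of_mem hS hD
  have hsub : ⁅⁅A, B⁆, D⁆ ≤ ⁅E, D⁆ := by
    rw [← hCD.2.2.1 e (hle he) he1, Subgroup.closure_le]
    rintro _ ⟨d', hd', rfl⟩
    exact Subgroup.commutator_mem_commutator he hd'
  obtain ⟨e', he', hee⟩ := exists_commutator_eq' hED hd hd1
    (hsub (Subgroup.commutator_mem_commutator hc hd))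
  have h1 : ⁅e'⁻¹ * c, d⁆ = 1 := by
    rw [commutator_mul_left hCD (inv_mem (hle he')) hc hd,
      commutator_inv_left hCD (hle he') hd, hee, inv_mul_cancel]
  have h2 : e'⁻¹ * c = 1 := by
    by_contra h2
    refine not_commute_elements hS hD h.1 hA (RankOnePair_symm hr) ?_ hd hd1
      (mul_mem (inv_mem (hle he')) hc) h2 (commutatorElement_eq_one_iff_commute.1 h1).symm
    rw [Subgroup.commutator_comm]; exact ne_bot hS hCD
  rw [inv_mul_eq_one] at h2
  exact h2 ▸ he'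

/-- The line through `A` and `[A, B]`. -/
theorem line_of_commutator (hS : IsRootSubgroupSet S) (hA : A ∈ S) (_hB : B ∈ S) {D : Subgroup G}
    (hD : D ∈ S) (hr : IsRankOnePair A D) (h : RootCommutatorCase S A B) :
    membersIn S (A ⊔ ⁅A, B⁆) = (fun b : G => conjBy A b) '' (B : Set G) ∪ {⁅A, B⁆} ∧
    IsSubgroupPartition (A ⊔ ⁅A, B⁆) (membersIn S (A ⊔ ⁅A, B⁆)) ∧
    A ∈ linePartners S ⁅A, B⁆ := by
  have hAC := comm_AC h
  have hne := left_ne_commutator hS h
  have hcover : ∀ x ∈ A ⊔ ⁅A, B⁆, x ∈ ⁅A, B⁆ ∨ ∃ b ∈ B, x ∈ conjBy A b := by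
    intro x hx
    obtain ⟨a, ha, c, hc, rfl⟩ := mem_sup_of_comm hAC hx
    by_cases ha1 : a = 1
    · exact Or.inl (by simpa [ha1] using hc)
    · obtain ⟨b, hb, he⟩ := exists_conj_mem h ha ha1 hc
      exact Or.inr ⟨b, hb, he ▸ conj_mem_conjBy b ha⟩
  have hmem : membersIn S (A ⊔ ⁅A, B⁆) =
      (fun b : G => conjBy A b) '' (B : Set G) ∪ {⁅A, B⁆} := by
    ext E
    constructor
    · rintro ⟨hE, hle⟩
      by_cases hC : E ≤ ⁅A, B⁆
      · exact Or.inr (eq_of_le_commutator hS hA hD hr h hE hC)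
      obtain ⟨x, hx, hxC⟩ := SetLike.not_le_iff_exists.1 hC
      obtain ⟨b, hb, hxb⟩ := (hcover x (hle hx)).resolve_left hxC
      exact Or.inl ⟨b, hb, (eq_of_inter hS (hS.conj_mem A hA b) (hS.conj_mem D hD b) hE
        (Pair.conj hr b) hxb hx (fun hh => hxC (hh ▸ one_mem _))).symm⟩
    · rintro (⟨b, hb, rfl⟩ | rfl)
      · exact ⟨hS.conj_mem A hA b, conjBy_le_line h hb⟩
      · exact ⟨h.1, le_sup_right⟩
  have hfix : ∀ b ∈ B, conjBy ⁅A, B⁆ b = ⁅A, B⁆ := fun b hb =>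
    conjBy_of_commute fun c hc => (comm_right h hc hb).symm
  have hpart : IsSubgroupPartition (A ⊔ ⁅A, B⁆) (membersIn S (A ⊔ ⁅A, B⁆)) := by
    refine ⟨fun C hC => hC.2, fun x hx _ => ?_, ?_⟩
    · rcases hcover x hx with hxC | ⟨b, hb, hxb⟩
      · exact ⟨_, ⟨h.1, le_sup_right⟩, hxC⟩
      · exact ⟨_, ⟨hS.conj_mem A hA b, conjBy_le_line h hb⟩, hxb⟩
    · rw [hmem]
      rintro C hC E hE hCE
      rcases hC with ⟨b, hb, rfl⟩ | rfl
      · have hEmem : E ∈ S := by
          rcases hE with ⟨b', -, rfl⟩ | rfl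
          exacts [hS.conj_mem A hA b', h.1]
        exact inf_eq_bot_of_partner hS (hS.conj_mem A hA b) (hS.conj_mem D hD b) hEmem
          (Pair.conj hr b) (Ne.symm hCE)
      · rcases hE with ⟨b', hb', rfl⟩ | rfl
        · rw [inf_comm]
          exact inf_eq_bot_of_partner hS (hS.conj_mem A hA b') (hS.conj_mem D hD b') h.1
            (Pair.conj hr b') hCE
        · exact absurd rfl hCE
  refine ⟨hmem, hpart, ⟨⟨hA, hne, commutator_eq_bot_iff_forall.2 fun c hc a ha =>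
    comm_left h hc ha⟩, ?_⟩⟩
  rwa [sup_comm]

theorem exists_iso (hS : IsRootSubgroupSet S) (hA : A ∈ S) (hB : B ∈ S) {D : Subgroup G}
    (hD : D ∈ S) (hr : IsRankOnePair A D) (h : RootCommutatorCase S A B) {a : G} (ha : a ∈ A)
    (ha1 : a ≠ 1) : ∃ φ : ↥B ≃* ↥⁅A, B⁆, ∀ b : ↥B, (φ b : G) = a⁻¹ * (b : G)⁻¹ * a * b := by
  let f : ↥B →* ↥⁅A, B⁆ := MonoidHom.mk'
    (fun b => ⟨⁅a⁻¹, (b : G)⁻¹⁆,
      Subgroup.commutator_mem_commutator (inv_mem ha) (inv_mem b.2)⟩)
    (fun b b' => Subtype.ext (by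
      show ⁅a⁻¹, ((b : G) * b')⁻¹⁆ = ⁅a⁻¹, (b : G)⁻¹⁆ * ⁅a⁻¹, (b' : G)⁻¹⁆
      rw [← commutator_mul_right h (inv_mem ha) (inv_mem b.2) (inv_mem b'.2), mul_inv_rev,
        comm_of_mem hS hB (inv_mem b'.2) (inv_mem b.2)]))
  have hbij : Function.Bijective f := by
    constructor
    · rw [injective_iff_map_eq_one]
      intro b hb
      have hb' : ⁅a⁻¹, (b : G)⁻¹⁆ = 1 := congrArg Subtype.val hb
      by_contra hne
      exact not_commute_elements hS hA hB hD hr (ne_bot hS h) (inv_mem ha) (by simpa using ha1)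
        (inv_mem b.2) (by simpa using fun hh => hne (Subtype.ext hh))
        (commutatorElement_eq_one_iff_commute.1 hb')
    · rintro ⟨c, hc⟩
      obtain ⟨b, hb, he⟩ := exists_commutator_eq h (inv_mem ha) (by simpa using ha1) hc
      exact ⟨⟨b⁻¹, inv_mem hb⟩, Subtype.ext (by simpa [f] using he)⟩
  exact ⟨MulEquiv.ofBijective f hbij, fun b => by
    simp [f, commutatorElement_def]⟩

end CommCase

/-! ### The configuration `[A, B] = C`, `[D, C] = A` -/

section Opposite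

variable {A B D : Subgroup G}

theorem opposite_rankOne (hS : IsRootSubgroupSet S) (hA : A ∈ S) (hB : B ∈ S) (hD : D ∈ S)
    (h1 : RootCommutatorCase S A B) (h2 : RootCommutatorCase S D ⁅A, B⁆)
    (hDC : ⁅D, ⁅A, B⁆⁆ = A) : IsRankOnePair B D := by
  -- elements of `D` centralize `A`
  have hDA : ∀ d ∈ D, ∀ a ∈ A, d * a = a * d := fun d hd a ha =>
    (CommCase.comm_left h2 (hDC.symm ▸ ha) hd).symm
  rcases hS.pair B hB D hD with h0 | h0 | h0
  · exfalso
    rw [commutator_eq_bot_iff_forall] at h0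
    obtain ⟨a, ha, ha1⟩ := exists_ne_one_of_mem hS hA
    obtain ⟨d, hd, hd1⟩ := exists_ne_one_of_mem hS hD
    obtain ⟨c, hc, hce⟩ := CommCase.exists_commutator_eq h2 hd hd1 (c := a) (by rw [hDC]; exact ha)
    obtain ⟨b, hb, hb1⟩ := exists_ne_one_of_mem hS hB
    obtain ⟨a', ha', hae⟩ := CommCase.exists_commutator_eq' h1 hb hb1 hc
    -- `d` centralizes `a'` and `b`, hence `c`
    have : d * c = c * d := by
      rw [← hae, commutatorElement_def]
      exact (((show Commute d a' from hDA d hd a' ha').mul_right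
        (show Commute b d from h0 b hb d hd).symm).mul_right
        (show Commute d a' from hDA d hd a' ha').inv_right).mul_right
        (show Commute b d from h0 b hb d hd).symm.inv_right
    exact ha1 (hce ▸ commutatorElement_eq_one_iff_commute.2 this)
  · exact h0
  · exfalso
    obtain ⟨b, hb, hb1⟩ := exists_ne_one_of_mem hS hB
    obtain ⟨d, hd, hd1⟩ := exists_ne_one_of_mem hS hD
    set f : G := d * b * d⁻¹ with hf
    have hfb : b * f = f * b := by
      have h3 := CommCase.comm_right (CommCase.symm h0)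
        (Subgroup.commutator_mem_commutator hd hb) hb
      rw [commutatorElement_def] at h3
      calc b * f = b * (d * b * d⁻¹ * b⁻¹) * b := by rw [hf]; group
        _ = (d * b * d⁻¹ * b⁻¹) * b * b := by rw [← h3]
        _ = f * b := by rw [hf]; group
    -- every element of `A` commutes with `b`
    have hcen : ∀ x ∈ A, b * x = x * b := by
      intro x hx
      obtain ⟨c₁, hc₁, e₁⟩ := CommCase.exists_commutator_eq h2 hd hd1 (c := x)
        (by rw [hDC]; exact hx)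
      obtain ⟨a₀, ha₀, e₀⟩ := CommCase.exists_commutator_eq' h1 hb hb1 (inv_mem hc₁)
      obtain ⟨c₀, hc₀, ec⟩ := CommCase.exists_commutator_eq h2 hd hd1 (c := a₀)
        (by rw [hDC]; exact ha₀)
      have dc₀ : d * c₀ * d⁻¹ = a₀ * c₀ := by rw [← ec, commutatorElement_def]; group
      have dc₁ : d * c₁ * d⁻¹ = x * c₁ := by rw [← e₁, commutatorElement_def]; group
      have ba₀ : b * a₀ * b⁻¹ = a₀ * c₁ := by rw [CommCase.conj_eq_mul h1 ha₀ hb, e₀, inv_inv]
      have da₀ : d * a₀ * d⁻¹ = a₀ := by rw [hDA d hd a₀ ha₀, mul_inv_cancel_right]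
      have bc₀ : b * c₀ * b⁻¹ = c₀ := by
        rw [← CommCase.comm_right h1 hc₀ hb, mul_inv_cancel_right]
      have bc₁ : b * c₁ * b⁻¹ = c₁ := by
        rw [← CommCase.comm_right h1 hc₁ hb, mul_inv_cancel_right]
      -- conjugate of `c₀` by `f`
      have dinv : d⁻¹ * c₀ * d = a₀⁻¹ * c₀ := by
        calc d⁻¹ * c₀ * d = d⁻¹ * (a₀⁻¹ * (d * c₀ * d⁻¹)) * d := by rw [dc₀]; group
          _ = d⁻¹ * (d * a₀ * d⁻¹)⁻¹ * d * c₀ := by rw [da₀]; group
          _ = a₀⁻¹ * c₀ := by group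
      have fc : f * c₀ * f⁻¹ = c₁⁻¹ * x⁻¹ * c₀ := by
        calc f * c₀ * f⁻¹ = d * (b * (d⁻¹ * c₀ * d) * b⁻¹) * d⁻¹ := by rw [hf]; group
          _ = d * ((b * a₀ * b⁻¹)⁻¹ * (b * c₀ * b⁻¹)) * d⁻¹ := by rw [dinv]; group
          _ = d * ((a₀ * c₁)⁻¹ * c₀) * d⁻¹ := by rw [ba₀, bc₀]
          _ = (d * c₁ * d⁻¹)⁻¹ * (d * a₀ * d⁻¹)⁻¹ * (d * c₀ * d⁻¹) := by group
          _ = (x * c₁)⁻¹ * a₀⁻¹ * (a₀ * c₀) := by rw [dc₁, da₀, dc₀]
          _ = c₁⁻¹ * x⁻¹ * c₀ := by group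
      have k1 : Commute b (f * c₀ * f⁻¹) :=
        ((show Commute b f from hfb).mul_right
          (show Commute b c₀ from (CommCase.comm_right h1 hc₀ hb).symm)).mul_right
          (show Commute b f from hfb).inv_right
      have k2 : Commute b c₁ := (CommCase.comm_right h1 hc₁ hb).symm
      have k3 : Commute b c₀ := (CommCase.comm_right h1 hc₀ hb).symm
      have : x = (c₁ * (f * c₀ * f⁻¹) * c₀⁻¹)⁻¹ := by rw [fc]; group
      rw [this]
      exact ((k2.mul_right k1).mul_right k3.inv_right).inv_right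
    obtain ⟨a, ha, hne⟩ := CommCase.exists_commutator_ne_one hS (CommCase.symm h1) hb hb1
    exact hne (commutatorElement_eq_one_iff_commute.2 (hcen a ha))

end Opposite

end Cfsg.Agent.RootSub
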