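import Cfsg.Agent.RootSub.RankOne

/-! Groups of linear maps acting unipotently: flags, extensions, Baer's maximal families. -/

set_option autoImplicit false

namespace Cfsg.Agent.RootSub

open Cfsg

variable {k : Type*} [Field k] {M : Type*} [AddCommGroup M] [Module k M]

local notation "GLM" => LinearMap.GeneralLinearGroup k M

/-- `g - 1` as an endomorphism. -/
def devMap (g : GLM) : M →ₗ[k] M := (g : M →ₗ[k] M) - 1

theorem devMap_apply (g : GLM) (m : M) : devMap g m = (g : M →ₗ[k] M) m - m := by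
  simp [devMap]

theorem devMap_one : devMap (1 : GLM) = 0 := by simp [devMap]

theorem apply_eq_devMap (g : GLM) (m : M) : (g : M →ₗ[k] M) m = devMap g m + m := by
  rw [devMap_apply, sub_add_cancel]

theorem apply_mul (g h : GLM) (m : M) :
    ((g * h : GLM) : M →ₗ[k] M) m = (g : M →ₗ[k] M) ((h : M →ₗ[k] M) m) := rfl

theorem apply_inv_apply (g : GLM) (m : M) :
    (g : M →ₗ[k] M) ((g⁻¹ : GLM) |>.val m) = m := by
  rw [← apply_mul, mul_inv_cancel]; rfl

theorem inv_apply_apply (g : GLM) (m : M) :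
    ((g⁻¹ : GLM) : M →ₗ[k] M) ((g : M →ₗ[k] M) m) = m := by
  rw [← apply_mul, inv_mul_cancel]; rfl

/-- The `i`-th commutator space of a set of linear maps. -/
def commIter (s : Set GLM) : ℕ → Submodule k M
  | 0 => ⊤
  | i + 1 => ⨆ g ∈ s, (commIter s i).map (devMap g)

theorem commIter_antitone (s : Set GLM) (i : ℕ) : commIter s (i + 1) ≤ commIter s i := by
  induction i with
  | zero => exact le_top
  | succ i ih =>
    refine iSup₂_le fun g hg => ?_
    exact (Submodule.map_mono ih).trans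
      (le_iSup₂ (f := fun (g : GLM) (_ : g ∈ s) => (commIter s i).map (devMap g)) g hg)

theorem commIter_le_of_le (s : Set GLM) {i j : ℕ} (h : i ≤ j) : commIter s j ≤ commIter s i := by
  induction h with
  | refl => exact le_rfl
  | step _ ih => exact (commIter_antitone s _).trans ih

theorem devMap_mem_commIter {s : Set GLM} {g : GLM} (hg : g ∈ s) {i : ℕ} {m : M}
    (hm : m ∈ commIter s i) : devMap g m ∈ commIter s (i + 1) :=
  (le_iSup₂ (f := fun (g : GLM) (_ : g ∈ s) => (commIter s i).map (devMap g)) g hg)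
    (Submodule.mem_map_of_mem hm)

/-- A normalizing element preserves the commutator spaces. -/
theorem commIter_map_le {H : Subgroup GLM} {g : GLM} (hg : ∀ h ∈ H, g * h * g⁻¹ ∈ H) (i : ℕ) :
    (commIter (H : Set GLM) i).map (g : M →ₗ[k] M) ≤ commIter (H : Set GLM) i := by
  induction i with
  | zero => exact le_top
  | succ i ih =>
    rw [commIter, Submodule.map_iSup]
    refine iSup_le fun h => ?_
    rw [Submodule.map_iSup]
    refine iSup_le fun hh => ?_
    rintro _ ⟨_, ⟨m, hm, rfl⟩, rfl⟩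
    have e : (g : M →ₗ[k] M) (devMap h m) = devMap (g * h * g⁻¹) ((g : M →ₗ[k] M) m) := by
      simp only [devMap_apply, apply_mul, inv_apply_apply, map_sub]
    rw [e]
    exact devMap_mem_commIter (hg h hh) (ih (Submodule.mem_map_of_mem hm))

theorem commIter_list (s : Set GLM) (l : List GLM) (hl : ∀ g ∈ l, g ∈ s) (m : M) :
    ((l.map fun g => (g : M →ₗ[k] M) - 1).prod) m ∈ commIter s l.length := by
  induction l with
  | nil => exact Submodule.mem_top
  | cons g l ih =>
    simp only [List.map_cons, List.prod_cons, List.length_cons, Module.End.mul_apply]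
    exact devMap_mem_commIter (hl g (List.mem_cons_self ..))
      (ih fun x hx => hl x (List.mem_cons_of_mem _ hx))

theorem commIter_le_span (s : Set GLM) (n : ℕ) : commIter s n ≤
    Submodule.span k {x | ∃ l : List GLM, (∀ g ∈ l, g ∈ s) ∧ l.length = n ∧
      ∃ m : M, ((l.map fun g => (g : M →ₗ[k] M) - 1).prod) m = x} := by
  induction n with
  | zero => exact fun m _ => Submodule.subset_span ⟨[], by simp, rfl, m, by simp⟩
  | succ n ih =>
    refine iSup₂_le fun g hg => (Submodule.map_mono ih).trans ?_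
    rw [Submodule.map_span]
    refine Submodule.span_mono ?_
    rintro _ ⟨_, ⟨l, hl, hlen, m, rfl⟩, rfl⟩
    refine ⟨g :: l, ?_, by simp [hlen], m, by simp [devMap]⟩
    intro x hx
    rcases List.mem_cons.1 hx with rfl | hx
    exacts [hg, hl x hx]

theorem isUnipotentOn_iff_commIter (H : Subgroup GLM) :
    IsUnipotentOn H ↔ ∃ n, commIter (H : Set GLM) n = ⊥ := by
  constructor
  · rintro ⟨n, hn⟩
    refine ⟨n, eq_bot_iff.2 ((commIter_le_span _ n).trans (Submodule.span_le.2 ?_))⟩
    rintro _ ⟨l, hl, hlen, m, rfl⟩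
    have h0 := LinearMap.congr_fun (hn l hl hlen) m
    simpa using h0
  · rintro ⟨n, hn⟩
    refine ⟨n, fun l hl hlen => ?_⟩
    ext m
    have := commIter_list (H : Set GLM) l hl m
    rw [hlen, hn] at this
    simpa using this

variable [FiniteDimensional k M]

/-- The stabilizer of a descending flag. -/
def flagGroup (F : ℕ → Submodule k M) (hF : ∀ i, F (i + 1) ≤ F i) : Subgroup GLM where
  carrier := {g | ∀ i, ∀ m ∈ F i, devMap g m ∈ F (i + 1)}
  one_mem' := fun i m _ => by simp [devMap_one]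
  mul_mem' := fun {g h} hg hh i m hm => by
    have e : devMap (g * h) m = devMap g (devMap h m) + devMap g m + devMap h m := by
      simp only [devMap_apply, apply_mul, map_sub]; abel
    rw [e]
    exact add_mem (add_mem (hF _ (hg (i + 1) _ (hh i m hm))) (hg i m hm)) (hh i m hm)
  inv_mem' := fun {g} hg i m hm => by
    have hinv : ∀ j, ∀ x ∈ F j, ((g⁻¹ : GLM) : M →ₗ[k] M) x ∈ F j := by
      intro j x hx
      have hle : (F j).map (g : M →ₗ[k] M) ≤ F j := by
        rintro _ ⟨y, hy, rfl⟩
        rw [apply_eq_devMap]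
        exact add_mem (hF _ (hg j y hy)) hy
      have hinj : Function.Injective (g : M →ₗ[k] M) :=
        Function.LeftInverse.injective (inv_apply_apply g)
      have heq : (F j).map (g : M →ₗ[k] M) = F j :=
        Submodule.eq_of_le_of_finrank_le hle
          (Submodule.equivMapOfInjective _ hinj (F j)).finrank_eq.le
      rw [← heq] at hx
      obtain ⟨y, hy, rfl⟩ := hx
      rwa [inv_apply_apply]
    have e : devMap g⁻¹ m = -((g⁻¹ : GLM) : M →ₗ[k] M) (devMap g m) := by
      simp only [devMap_apply, map_sub, inv_apply_apply, neg_sub]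
    rw [e]
    exact neg_mem (hinv _ _ (hg i m hm))

theorem isUnipotentOn_of_flag (H : Subgroup GLM) (F : ℕ → Submodule k M)
    (hF : ∀ i, F (i + 1) ≤ F i) (h0 : F 0 = ⊤) {n : ℕ} (hn : F n = ⊥)
    (hH : H ≤ flagGroup F hF) : IsUnipotentOn H := by
  rw [isUnipotentOn_iff_commIter]
  refine ⟨n, eq_bot_iff.2 (hn ▸ ?_)⟩
  have : ∀ i, commIter (H : Set GLM) i ≤ F i := by
    intro i
    induction i with
    | zero => exact h0.ge.trans' le_top
    | succ i ih =>
      refine iSup₂_le fun g hg => ?_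
      rintro _ ⟨m, hm, rfl⟩
      exact hH hg i m (ih hm)
  exact this n

/-- A unipotent group extended by a unipotent group normalizing it is unipotent. -/
theorem isUnipotentOn_sup {V U : Subgroup GLM} (hV : IsUnipotentOn V) (hU : IsUnipotentOn U)
    (hn : U ≤ Subgroup.normalizer (V : Set GLM)) : IsUnipotentOn (V ⊔ U) := by
  rw [isUnipotentOn_iff_commIter] at hV hU
  obtain ⟨nV, hV⟩ := hV
  obtain ⟨nU, hU⟩ := hU
  set w := nU + 1 with hw
  have hUw : commIter (U : Set GLM) nU = ⊥ := hU
  let F : ℕ → Submodule k M := fun t =>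
    commIter (V : Set GLM) (t / w + 1) ⊔
      (commIter (V : Set GLM) (t / w) ⊓ commIter (U : Set GLM) (t % w))
  have hstep : ∀ t, commIter (V : Set GLM) (t / w + 1) ≤ F (t + 1) ∧
      (t % w + 1 < w → F (t + 1) = commIter (V : Set GLM) (t / w + 1) ⊔
        (commIter (V : Set GLM) (t / w) ⊓ commIter (U : Set GLM) (t % w + 1))) ∧
      (t % w + 1 = w → F (t + 1) = commIter (V : Set GLM) (t / w + 1) ∧
        commIter (U : Set GLM) (t % w) = ⊥) := by
    intro t
    have h1 := Nat.mod_lt t (show w > 0 by omega)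
    have hdm := Nat.div_add_mod t w
    rcases lt_or_eq_of_le (show t % w + 1 ≤ w from h1) with hlt | heq
    · have hd : (t + 1) / w = t / w ∧ (t + 1) % w = t % w + 1 := by
        rw [Nat.div_mod_unique (by omega)]
        exact ⟨by omega, hlt⟩
      have he : F (t + 1) = commIter (V : Set GLM) (t / w + 1) ⊔
          (commIter (V : Set GLM) (t / w) ⊓ commIter (U : Set GLM) (t % w + 1)) := by
        simp only [F, hd.1, hd.2]
      exact ⟨he ▸ le_sup_left, fun _ => he, fun h => by omega⟩
    · have hd : (t + 1) / w = t / w + 1 ∧ (t + 1) % w = 0 := by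
        rw [Nat.div_mod_unique (by omega)]
        exact ⟨by rw [Nat.mul_succ]; omega, by omega⟩
      have he : F (t + 1) = commIter (V : Set GLM) (t / w + 1) := by
        simp only [F, hd.1, hd.2]
        rw [show commIter (U : Set GLM) 0 = ⊤ from rfl, inf_top_eq, sup_eq_right.2
          (commIter_antitone _ _)]
      exact ⟨he.ge, fun h => by omega, fun _ => ⟨he, by rw [show t % w = nU by omega]; exact hU⟩⟩
  have hanti : ∀ t, F (t + 1) ≤ F t := by
    intro t
    obtain ⟨-, ha, hb⟩ := hstep t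
    rcases lt_or_eq_of_le (show t % w + 1 ≤ w from Nat.mod_lt t (by omega)) with h | h
    · rw [ha h]
      exact sup_le_sup_left (inf_le_inf_left _ (commIter_antitone _ _)) _
    · rw [(hb h).1]; exact le_sup_left
  have hFle : ∀ t, F t ≤ commIter (V : Set GLM) (t / w) := fun t =>
    sup_le (commIter_antitone _ _) inf_le_left
  refine isUnipotentOn_of_flag _ F hanti ?_ (n := nV * w) ?_ (sup_le ?_ ?_)
  · simp only [F, Nat.zero_div, Nat.zero_mod]
    rw [show commIter (V : Set GLM) 0 = ⊤ from rfl, show commIter (U : Set GLM) 0 = ⊤ from rfl,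
      inf_top_eq, sup_top_eq]
  · rw [eq_bot_iff, ← hV]
    refine (hFle _).trans ?_
    rw [Nat.mul_div_cancel _ (by omega)]
  · intro v hv t m hm
    exact (hstep t).1 (devMap_mem_commIter hv (hFle t hm))
  · intro u hu t m hm
    have hVu : ∀ i x, x ∈ commIter (V : Set GLM) i → devMap u x ∈ commIter (V : Set GLM) i := by
      intro i x hx
      rw [devMap_apply]
      refine sub_mem (commIter_map_le (fun h hh => ?_) i (Submodule.mem_map_of_mem hx)) hx
      exact (Subgroup.mem_normalizer_iff.1 (hn hu) h).1 hh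
    obtain ⟨y, hy, z, hz, rfl⟩ := Submodule.mem_sup.1 hm
    rw [map_add]
    obtain ⟨h0, ha, hb⟩ := hstep t
    refine add_mem (h0 (hVu _ y hy)) ?_
    rcases lt_or_eq_of_le (show t % w + 1 ≤ w from Nat.mod_lt t (by omega)) with h | h
    · rw [ha h]
      exact Submodule.mem_sup_right ⟨hVu _ z hz.1, devMap_mem_commIter hu hz.2⟩
    · have : z = 0 := by simpa [(hb h).2] using hz.2
      simp [this]

/-- The generated subgroup of a family. -/
def familyGroup (s : Set (Subgroup GLM)) : Subgroup GLM := ⨆ A ∈ s, A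

theorem le_familyGroup {s : Set (Subgroup GLM)} {A : Subgroup GLM} (h : A ∈ s) :
    A ≤ familyGroup s :=
  le_iSup₂ (f := fun (A : Subgroup GLM) (_ : A ∈ s) => A) A h

theorem familyGroup_mono {s t : Set (Subgroup GLM)} (h : s ⊆ t) : familyGroup s ≤ familyGroup t :=
  iSup₂_le fun _ hA => le_familyGroup (h hA)

/-- The span of the deviations of a subgroup. -/
def devSpan (H : Subgroup GLM) : Submodule k (M →ₗ[k] M) :=
  Submodule.span k (devMap '' (H : Set GLM))

theorem devSpan_mono {H K : Subgroup GLM} (h : H ≤ K) : devSpan H ≤ devSpan K :=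
  Submodule.span_mono (Set.image_mono h)

theorem isUnipotentOn_of_devSpan {H K : Subgroup GLM} (hK : IsUnipotentOn K)
    (h : ∀ g ∈ H, devMap g ∈ devSpan K) : IsUnipotentOn H := by
  rw [isUnipotentOn_iff_commIter] at hK
  obtain ⟨n, hn⟩ := hK
  refine isUnipotentOn_of_flag _ (commIter (K : Set GLM)) (commIter_antitone _) rfl hn ?_
  intro g hg i m hm
  have key : ∀ f ∈ devSpan K, f m ∈ commIter (K : Set GLM) (i + 1) := by
    intro f hf
    induction hf using Submodule.span_induction with
    | mem x hx => obtain ⟨a, ha, rfl⟩ := hx; exact devMap_mem_commIter ha hm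
    | zero => simp
    | add x y _ _ hx hy => exact add_mem hx hy
    | smul c x _ hx => exact Submodule.smul_mem _ c hx
  exact key _ (h g hg)

theorem devSpan_mul {H : Subgroup GLM} {f f' : M →ₗ[k] M} (hf : f ∈ devSpan H)
    (hf' : f' ∈ devSpan H) : f * f' ∈ devSpan H := by
  induction hf using Submodule.span_induction with
  | mem x hx =>
    induction hf' using Submodule.span_induction with
    | mem y hy =>
      obtain ⟨a, ha, rfl⟩ := hx
      obtain ⟨b, hb, rfl⟩ := hy
      have : devMap a * devMap b = devMap (a * b) - devMap a - devMap b := by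
        simp only [devMap, Units.val_mul, sub_mul, mul_sub, one_mul, mul_one]; abel
      rw [this]
      exact sub_mem (sub_mem (Submodule.subset_span ⟨_, mul_mem ha hb, rfl⟩)
        (Submodule.subset_span ⟨a, ha, rfl⟩)) (Submodule.subset_span ⟨b, hb, rfl⟩)
    | zero => simp
    | add y z _ _ hy hz => rw [mul_add]; exact add_mem hy hz
    | smul c y _ hy => rw [mul_smul_comm]; exact Submodule.smul_mem _ c hy
  | zero => simp
  | add x y _ _ hx hy => rw [add_mul]; exact add_mem hx hy
  | smul c x _ hx => rw [smul_mul_assoc]; exact Submodule.smul_mem _ c hx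

theorem devSpan_familyGroup_le {s : Set (Subgroup GLM)} {H : Subgroup GLM} (hH : IsUnipotentOn H)
    (h : ∀ A ∈ s, ∀ a ∈ A, devMap a ∈ devSpan H) :
    ∀ g ∈ familyGroup s, devMap g ∈ devSpan H := by
  -- the elements `g` with both deviations in the span form a subgroup
  let K : Subgroup GLM :=
    { carrier := {g | devMap g ∈ devSpan H ∧ devMap g⁻¹ ∈ devSpan H}
      one_mem' := by simp [devMap_one]
      mul_mem' := fun {a b} ha hb => by
        have e : ∀ x y : GLM, devMap (x * y) = devMap x * devMap y + devMap x + devMap y := by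
          intro x y
          simp only [devMap, Units.val_mul, sub_mul, mul_sub, one_mul, mul_one]; abel
        refine ⟨?_, ?_⟩
        · rw [e]; exact add_mem (add_mem (devSpan_mul ha.1 hb.1) ha.1) hb.1
        · rw [mul_inv_rev, e]; exact add_mem (add_mem (devSpan_mul hb.2 ha.2) hb.2) ha.2
      inv_mem' := fun {a} ha => ⟨ha.2, by simpa using ha.1⟩ }
  have hle : familyGroup s ≤ K := iSup₂_le fun A hA a ha => ⟨h A hA a ha, h A hA _ (inv_mem ha)⟩
  exact fun g hg => (hle hg).1

/-- Baer's argument: a conjugation invariant family of subgroups generating pairwise unipotent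
subgroups generates a unipotent subgroup. -/
theorem isUnipotentOn_family {W : Set (Subgroup GLM)}
    (hWW : ∀ A ∈ W, ∀ B ∈ W, IsUnipotentOn (A ⊔ B))
    (hconj : ∀ A ∈ W, ∀ B ∈ W, ∀ g ∈ A, conjBy B g ∈ W) :
    IsUnipotentOn (⨆ A ∈ W, A) := by
  classical
  show IsUnipotentOn (familyGroup W)
  have hconjW : ∀ g ∈ familyGroup W, ∀ B ∈ W, conjBy B g ∈ W := by
    have hle : familyGroup W ≤ Subgroup.closure (⋃ A ∈ W, (A : Set GLM)) :=
      iSup₂_le fun E hE x hx => Subgroup.subset_closure (Set.mem_biUnion hE hx)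
    intro g hg
    refine Subgroup.closure_induction'' (p := fun g _ => ∀ B ∈ W, conjBy B g ∈ W) ?_ ?_ ?_ ?_
      (hle hg)
    · intro x hx B hB
      obtain ⟨A, hA, hxA⟩ := Set.mem_iUnion₂.1 hx
      exact hconj A hA B hB x hxA
    · intro x hx B hB
      obtain ⟨A, hA, hxA⟩ := Set.mem_iUnion₂.1 hx
      exact hconj A hA B hB _ (inv_mem hxA)
    · intro B hB; rwa [conjBy_one]
    · intro x y _ _ hx hy B hB
      rw [← conjBy_conjBy]
      exact hx _ (hy B hB)
  -- closed unipotent subfamilies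
  let sat : Set (Subgroup GLM) → Set (Subgroup GLM) := fun s =>
    {A | A ∈ W ∧ ∀ a ∈ A, devMap a ∈ devSpan (familyGroup s)}
  let Cl : Set (Set (Subgroup GLM)) := {s | s ⊆ W ∧ IsUnipotentOn (familyGroup s) ∧ sat s = s}
  have hsat : ∀ s, s ⊆ W → IsUnipotentOn (familyGroup s) → ∃ t ∈ Cl, s ⊆ t := by
    intro s hs hu
    have hsub : s ⊆ sat s := fun A hA =>
      ⟨hs hA, fun a ha => Submodule.subset_span ⟨a, le_familyGroup hA ha, rfl⟩⟩
    have h1 := devSpan_familyGroup_le hu (s := sat s) fun A hA => hA.2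
    refine ⟨sat s, ⟨fun A hA => hA.1, isUnipotentOn_of_devSpan hu h1, ?_⟩, hsub⟩
    ext A
    refine ⟨fun hA => ⟨hA.1, fun a ha => ?_⟩, fun hA => ⟨hA.1, fun a ha =>
      Submodule.subset_span ⟨a, le_familyGroup hA ha, rfl⟩⟩⟩
    have hle : devSpan (familyGroup (sat s)) ≤ devSpan (familyGroup s) :=
      Submodule.span_le.2 (by rintro _ ⟨g, hg, rfl⟩; exact h1 g hg)
    exact hle (hA.2 a ha)
  let dim : Set (Subgroup GLM) → ℕ := fun s => Module.finrank k (devSpan (familyGroup s))
  have heq : ∀ s ∈ Cl, ∀ t ∈ Cl, s ⊆ t → dim t ≤ dim s → s = t := by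
    intro s hs t ht hst hd
    refine Set.Subset.antisymm hst fun A hA => ?_
    rw [← hs.2.2]
    refine ⟨ht.1 hA, fun a ha => ?_⟩
    have h1 : devSpan (familyGroup s) = devSpan (familyGroup t) :=
      Submodule.eq_of_le_of_finrank_le (devSpan_mono (familyGroup_mono hst)) hd
    rw [h1]
    exact Submodule.subset_span ⟨a, le_familyGroup hA ha, rfl⟩
  have hbd : ∀ s, dim s ≤ Module.finrank k (M →ₗ[k] M) := fun s => Submodule.finrank_le _
  let IsMax : Set (Subgroup GLM) → Prop := fun s => s ∈ Cl ∧ ∀ t ∈ Cl, s ⊆ t → s = t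
  have hmax : ∀ s ∈ Cl, ∃ t, IsMax t ∧ s ⊆ t := by
    intro s hs
    obtain ⟨n, hn, hnmax⟩ : ∃ n, (∃ t ∈ Cl, s ⊆ t ∧ dim t = n) ∧
        ∀ t ∈ Cl, s ⊆ t → dim t ≤ n := by
      let P : ℕ → Prop := fun n => ∃ t ∈ Cl, s ⊆ t ∧ dim t = n
      refine ⟨Nat.findGreatest P (Module.finrank k (M →ₗ[k] M)), ?_, fun t ht hst =>
        Nat.le_findGreatest (hbd t) ⟨t, ht, hst, rfl⟩⟩
      exact Nat.findGreatest_spec (P := P) (hbd s) ⟨s, hs, subset_rfl, rfl⟩
    obtain ⟨t, ht, hst, rfl⟩ := hn
    exact ⟨t, ⟨ht, fun u hu htu => heq t ht u hu htu (hnmax u hu (hst.trans htu))⟩, hst⟩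
  have hempty : IsUnipotentOn (familyGroup (∅ : Set (Subgroup GLM))) := by
    refine ⟨1, fun l hl hlen => ?_⟩
    obtain ⟨g, rfl⟩ := List.length_eq_one_iff.1 hlen
    have := hl g (List.mem_singleton_self g)
    simp [familyGroup] at this
    simp [this]
  have hinter : ∀ s ∈ Cl, ∀ t ∈ Cl, s ∩ t ∈ Cl := by
    intro s hs t ht
    have hu : IsUnipotentOn (familyGroup (s ∩ t)) := by
      refine isUnipotentOn_of_devSpan hs.2.1 fun g hg => Submodule.subset_span
        ⟨g, familyGroup_mono Set.inter_subset_left hg, rfl⟩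
    refine ⟨fun A hA => hs.1 hA.1, hu, Set.Subset.antisymm (fun A hA => ⟨?_, ?_⟩) fun A hA =>
      ⟨hs.1 hA.1, fun a ha => Submodule.subset_span ⟨a, le_familyGroup hA ha, rfl⟩⟩⟩
    · rw [← hs.2.2]
      exact ⟨hA.1, fun a ha => devSpan_mono (familyGroup_mono Set.inter_subset_left) (hA.2 a ha)⟩
    · rw [← ht.2.2]
      exact ⟨hA.1, fun a ha => devSpan_mono (familyGroup_mono Set.inter_subset_right) (hA.2 a ha)⟩
  -- all maximal families coincide
  have huniq : ∀ s, IsMax s → ∀ t, IsMax t → s = t := by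
    by_contra hh
    push Not at hh
    let P : ℕ → Prop := fun n => ∃ s, IsMax s ∧ ∃ t, IsMax t ∧ s ≠ t ∧ dim (s ∩ t) = n
    obtain ⟨s₀, hs₀, t₀, ht₀, hne₀⟩ := hh
    obtain ⟨s, hs, t, ht, hne, hn⟩ : P (Nat.findGreatest P (Module.finrank k (M →ₗ[k] M))) :=
      Nat.findGreatest_spec (P := P) (hbd (s₀ ∩ t₀)) ⟨s₀, hs₀, t₀, ht₀, hne₀, rfl⟩
    set D := s ∩ t with hD
    set V := familyGroup D with hVdef
    have hDCl : D ∈ Cl := hinter s hs.1 t ht.1
    -- members outside `D` normalizing `V`
    have normEx : ∀ r : Set (Subgroup GLM), r ∈ Cl → D ⊆ r → ¬ r ⊆ D →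
        ∃ A ∈ r, A ∉ D ∧ A ≤ Subgroup.normalizer (V : Set GLM) := by
      intro r hr hDr hrD
      obtain ⟨n, hn⟩ := (isUnipotentOn_iff_commIter _).1 hr.2.1
      set R := familyGroup r with hR
      have hVR : V ≤ R := familyGroup_mono hDr
      let K : ℕ → Set GLM := fun i =>
        {g | g ∈ R ∧ ∀ j, ∀ m ∈ commIter (R : Set GLM) j, devMap g m ∈ commIter (R : Set GLM) (j + i)}
      have hRr : ∀ g ∈ R, ∀ A ∈ r, conjBy A g ∈ r := by
        intro g hg A hA
        rw [← hr.2.2]
        refine ⟨hconjW g (familyGroup_mono hr.1 hg) A (hr.1 hA), fun a ha => ?_⟩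
        exact Submodule.subset_span ⟨a, conjBy_le_of_mem (le_familyGroup hA) hg ha, rfl⟩
      -- `[g, R] ⊆ K (i+1)`
      have hK : ∀ i, ∀ g ∈ K i, ∀ h ∈ R, g * h * g⁻¹ * h⁻¹ ∈ K (i + 1) := by
        rintro i g ⟨hg, hgi⟩ h hh
        refine ⟨mul_mem (mul_mem (mul_mem hg hh) (inv_mem hg)) (inv_mem hh), fun j m hm => ?_⟩
        have pres : ∀ x ∈ R, ∀ j, ∀ m ∈ commIter (R : Set GLM) j,
            (x : M →ₗ[k] M) m ∈ commIter (R : Set GLM) j := by
          intro x hx j m hm
          rw [apply_eq_devMap]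
          exact add_mem (commIter_antitone _ _ (devMap_mem_commIter hx hm)) hm
        set x := ((g⁻¹ * h⁻¹ : GLM) : M →ₗ[k] M) m with hxdef
        have hx : x ∈ commIter (R : Set GLM) j := pres _ (mul_mem (inv_mem hg) (inv_mem hh)) j m hm
        have e : devMap (g * h * g⁻¹ * h⁻¹) m = devMap g (devMap h x) - devMap h (devMap g x) := by
          have hm' : (h : M →ₗ[k] M) ((g : M →ₗ[k] M) x) = m := by
            rw [hxdef, apply_mul, apply_inv_apply, apply_inv_apply]
          simp only [devMap_apply, apply_mul, map_sub]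
          rw [← apply_mul g⁻¹ h⁻¹, ← hxdef, hm']
          abel
        rw [e]
        refine sub_mem ?_ ?_
        · have := hgi (j + 1) _ (devMap_mem_commIter hh hx)
          rwa [show j + 1 + i = j + (i + 1) by omega] at this
        · exact devMap_mem_commIter hh (hgi j x hx)
      have hK1 : (R : Set GLM) ⊆ K 1 := fun g hg => ⟨hg, fun j m hm => devMap_mem_commIter hg hm⟩
      have hKn : K n ⊆ {1} := by
        rintro g ⟨-, hg⟩
        refine Set.mem_singleton_iff.2 (Units.ext (LinearMap.ext fun m => ?_))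
        have := hg 0 m Submodule.mem_top
        rw [zero_add, hn, Submodule.mem_bot, devMap_apply, sub_eq_zero] at this
        simpa using this
      let G' : ℕ → Subgroup GLM := fun i => V ⊔ Subgroup.closure (K i)
      obtain ⟨A₀, hA₀, hA₀D⟩ := Set.not_subset.1 hrD
      have hA₀V : ¬ A₀ ≤ V := by
        intro h
        refine hA₀D ?_
        rw [← hDCl.2.2]
        exact ⟨hr.1 hA₀, fun a ha => Submodule.subset_span ⟨a, h ha, rfl⟩⟩
      have hex : ∃ j, ∃ A ∈ r, A ∉ D ∧ A ≤ G' (n - j) := ⟨n - 1, A₀, hA₀, hA₀D, by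
        by_cases hn0 : n = 0
        · exfalso
          apply hA₀V
          intro a ha
          subst hn0
          have htb : (⊤ : Submodule k M) = ⊥ := hn
          have : a = 1 := Units.ext (LinearMap.ext fun m => by
            have h1 : ∀ x : M, x = 0 := fun x => by
              have : x ∈ (⊤ : Submodule k M) := Submodule.mem_top
              rwa [htb, Submodule.mem_bot] at this
            rw [h1 ((a : M →ₗ[k] M) m), h1 (((1 : GLM) : M →ₗ[k] M) m)])
          rw [this]; exact one_mem _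
        · rw [show n - (n - 1) = 1 by omega]
          exact fun a ha => Subgroup.mem_sup_right
            (Subgroup.subset_closure (hK1 (le_familyGroup hA₀ ha)))⟩
      obtain ⟨A, hA, hAD, hAle⟩ := Nat.find_spec hex
      set j₀ := Nat.find hex with hj₀
      refine ⟨A, hA, hAD, hAle.trans (sup_le Subgroup.le_normalizer ((Subgroup.closure_le _).2 ?_))⟩
      intro g hg
      have hj0 : j₀ ≠ 0 := by
        intro h0
        refine hAD ?_
        rw [← hDCl.2.2]
        refine ⟨hr.1 hA, fun a ha => Submodule.subset_span ⟨a, ?_, rfl⟩⟩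
        have h1 := hAle ha
        rw [h0, Nat.sub_zero] at h1
        exact sup_le le_rfl ((Subgroup.closure_le V).2 fun x hx => by
          obtain rfl : x = 1 := hKn hx
          exact one_mem V) h1
      have key : ∀ g' : GLM, g' ∈ R → (∀ h ∈ R, g' * h * g'⁻¹ * h⁻¹ ∈ G' (n - j₀ + 1)) →
          conjBy V g' ≤ V := by
        intro g' hg' hc
        show (⨆ B ∈ D, B).map (MulAut.conj g').toMonoidHom ≤ familyGroup D
        rw [Subgroup.map_iSup]
        refine iSup_le fun B => ?_
        rw [Subgroup.map_iSup]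
        refine iSup_le fun hB => ?_
        refine le_familyGroup (?_ : conjBy B g' ∈ D)
        by_contra hnot
        have hfind := Nat.find_min hex (m := j₀ - 1) (by omega)
        refine hfind ⟨conjBy B g', hRr g' hg' B (hDr hB), hnot, ?_⟩
        have hle : n - j₀ + 1 = n - (j₀ - 1) ∨ n < j₀ := by omega
        rcases hle with hle | hle
        · rw [← hle]
          intro x hx
          obtain ⟨b, hb, rfl⟩ : ∃ b ∈ B, g' * b * g'⁻¹ = x := ⟨_, mem_conjBy.1 hx, by group⟩
          have : g' * b * g'⁻¹ = (g' * b * g'⁻¹ * b⁻¹) * b := by group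
          rw [this]
          exact mul_mem (hc b (hVR (le_familyGroup hB hb)))
            (Subgroup.mem_sup_left (le_familyGroup hB hb))
        · exact absurd (Nat.find_min' hex (m := n) (by
            refine ⟨A, hA, hAD, ?_⟩
            rw [show n - n = n - j₀ by omega]; exact hAle)) (by omega)
      rw [SetLike.mem_coe, ← conjBy_eq_self_iff]
      have hin : ∀ h ∈ R, g * h * g⁻¹ * h⁻¹ ∈ G' (n - j₀ + 1) := fun h hh =>
        Subgroup.mem_sup_right (Subgroup.subset_closure (hK _ g hg h hh))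
      have h2 := key g⁻¹ (inv_mem hg.1) fun h hh => by
        have h3 := hin (g⁻¹ * h * g) (mul_mem (mul_mem (inv_mem hg.1) hh) hg.1)
        have : g⁻¹ * h * g⁻¹⁻¹ * h⁻¹ = (g * (g⁻¹ * h * g) * g⁻¹ * (g⁻¹ * h * g)⁻¹)⁻¹ := by group
        rw [this]
        exact inv_mem h3
      refine le_antisymm (key g hg.1 hin) ?_
      have h4 := (conjBy_le_iff (g := g)).2 h2
      rwa [conjBy_conjBy, mul_inv_cancel, conjBy_one] at h4
    have hsD : ¬ s ⊆ D := fun h => hne (hs.2 t ht.1 (h.trans Set.inter_subset_right))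
    have htD : ¬ t ⊆ D := fun h => hne (ht.2 s hs.1 (h.trans Set.inter_subset_left)).symm
    obtain ⟨A₁, hA₁, hA₁D, hA₁n⟩ := normEx s hs.1 Set.inter_subset_left hsD
    obtain ⟨A₂, hA₂, hA₂D, hA₂n⟩ := normEx t ht.1 Set.inter_subset_right htD
    have hu : IsUnipotentOn (familyGroup (D ∪ {A₁, A₂})) := by
      have he : familyGroup (D ∪ {A₁, A₂}) = V ⊔ (A₁ ⊔ A₂) := by
        rw [hVdef, familyGroup, familyGroup, iSup_union, iSup_insert, iSup_singleton]
      rw [he]
      exact isUnipotentOn_sup hDCl.2.1 (hWW A₁ (hs.1.1 hA₁) A₂ (ht.1.1 hA₂)) (sup_le hA₁n hA₂n)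
    obtain ⟨c, hc, hsub⟩ := hsat _ (by
      rintro A (hA | rfl | rfl)
      exacts [hDCl.1 hA, hs.1.1 hA₁, ht.1.1 hA₂]) hu
    obtain ⟨r, hr, hcr⟩ := hmax c hc
    have bigger : ∀ u, IsMax u → D ⊆ u → (∃ A ∈ u, A ∈ ({A₁, A₂} : Set (Subgroup GLM)) ∧ A ∉ D) →
        u = r := by
      intro u hu' hDu ⟨A, hAu, hAmem, hAD⟩
      by_contra hne'
      have h1 : dim (u ∩ r) ≤ Nat.findGreatest P (Module.finrank k (M →ₗ[k] M)) :=
        Nat.le_findGreatest (hbd _) ⟨u, hu', r, hr, hne', rfl⟩
      have h2 : D ⊆ u ∩ r := fun B hB => ⟨hDu hB, hcr (hsub (Or.inl hB))⟩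
      have h3 := heq D hDCl (u ∩ r) (hinter u hu'.1 r hr.1) h2 (by rw [hn]; exact h1)
      exact hAD (h3 ▸ ⟨hAu, hcr (hsub (Or.inr hAmem))⟩)
    exact hne ((bigger s hs Set.inter_subset_left ⟨A₁, hA₁, Or.inl rfl, hA₁D⟩).trans
      (bigger t ht Set.inter_subset_right ⟨A₂, hA₂, Or.inr rfl, hA₂D⟩).symm)
  obtain ⟨t₀, ht₀, -⟩ := hsat ∅ (Set.empty_subset W) hempty
  obtain ⟨t, ht, -⟩ := hmax t₀ ht₀
  have hWt : W ⊆ t := by
    intro A hA
    have hAu : IsUnipotentOn (familyGroup ({A} : Set (Subgroup GLM))) := by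
      rw [familyGroup, iSup_singleton]
      have := hWW A hA A hA
      rwa [sup_idem] at this
    obtain ⟨c, hc, hsub⟩ := hsat {A} (Set.singleton_subset_iff.2 hA) hAu
    obtain ⟨r, hr, hcr⟩ := hmax c hc
    rw [huniq t ht r hr]
    exact hcr (hsub rfl)
  rw [Set.Subset.antisymm hWt ht.1.1]
  exact ht.1.2.1

end Cfsg.Agent.RootSub
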