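import Cfsg.Agent.RootSub.RankOne

/-! Quadratic pairs: the classes `E_σ`. -/

set_option autoImplicit false

namespace Cfsg.Agent.RootSub

open Cfsg

variable {k : Type*} [Field k] {M : Type*} [AddCommGroup M] [Module k M]

local notation "GLM" => LinearMap.GeneralLinearGroup k M

/-- The unit `1 + s` for `s * s = 0`. -/
def unipUnit (s : M →ₗ[k] M) (h : s * s = 0) : GLM where
  val := 1 + s
  inv := 1 - s
  val_inv := by rw [add_mul, mul_sub, mul_sub, one_mul, one_mul, mul_one, h]; abel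
  inv_val := by rw [sub_mul, mul_add, mul_add, one_mul, one_mul, mul_one, h]; abel

theorem sub_one_inv {σ : GLM} (h : ((σ : M →ₗ[k] M) - 1) * ((σ : M →ₗ[k] M) - 1) = 0) :
    ((σ⁻¹ : GLM) : M →ₗ[k] M) - 1 = -((σ : M →ₗ[k] M) - 1) := by
  have hv : ((σ⁻¹ : GLM) : M →ₗ[k] M) = 1 - ((σ : M →ₗ[k] M) - 1) := by
    have h1 : σ = unipUnit ((σ : M →ₗ[k] M) - 1) h := Units.ext (by simp [unipUnit])
    conv_lhs => rw [h1]
    rfl
  rw [hv]; abel

theorem pow_sub_one {σ : GLM} (h : ((σ : M →ₗ[k] M) - 1) * ((σ : M →ₗ[k] M) - 1) = 0) (n : ℕ) :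
    ((σ ^ n : GLM) : M →ₗ[k] M) = 1 + (n : k) • ((σ : M →ₗ[k] M) - 1) := by
  induction n with
  | zero => simp
  | succ n ih =>
    have hσ : (σ : M →ₗ[k] M) = 1 + ((σ : M →ₗ[k] M) - 1) := by abel
    rw [pow_succ, Units.val_mul, ih]
    conv_lhs => arg 2; rw [hσ]
    rw [add_mul, one_mul, smul_mul_assoc, mul_add, mul_one, h, add_zero, Nat.cast_succ, add_smul,
      one_smul]
    abel

variable [FiniteDimensional k M] {G : Subgroup (LinearMap.GeneralLinearGroup k M)}

theorem sameActionClass_mul_mem {σ x y : GLM} (hσ : σ ∈ minimalQuadraticElements G)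
    (hx : x ∈ sameActionClass G σ) (hy : y ∈ sameActionClass G σ) :
    (x * y = 1 ∨ x * y ∈ sameActionClass G σ) ∧ x * y = y * x := by
  set a := (σ : M →ₗ[k] M) - 1 with ha
  set s := (x : M →ₗ[k] M) - 1 with hs
  set t := (y : M →ₗ[k] M) - 1 with ht
  obtain ⟨⟨⟨hxG, ⟨hxx, -⟩, hxs⟩, hxmin⟩, hxk, hxr⟩ := hx
  obtain ⟨⟨⟨hyG, ⟨hyy, -⟩, hys⟩, -⟩, hyk, hyr⟩ := hy
  have haa : a * a = 0 := hσ.1.2.1.1
  have hle : LinearMap.range a ≤ LinearMap.ker a := by
    rintro _ ⟨m, rfl⟩
    rw [LinearMap.mem_ker, ← Module.End.mul_apply, haa]; rfl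
  have hmul0 : ∀ p q : M →ₗ[k] M, LinearMap.ker p = LinearMap.ker a →
      LinearMap.range q = LinearMap.range a → p * q = 0 := by
    intro p q hp hq
    ext m
    have : q m ∈ LinearMap.ker p := hp ▸ hle (hq ▸ LinearMap.mem_range_self q m)
    simpa using this
  have hst : s * t = 0 := hmul0 s t hxk hyr
  have hts : t * s = 0 := hmul0 t s hyk hxr
  have hval : ((x * y : GLM) : M →ₗ[k] M) - 1 = s + t := by
    have : (x : M →ₗ[k] M) * y - 1 = s * t + s + t := by
      simp only [hs, ht, sub_mul, mul_sub, one_mul, mul_one]; abel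
    rw [Units.val_mul, this, hst, zero_add]
  have hcomm : x * y = y * x := by
    apply Units.ext
    have h2 : (y : M →ₗ[k] M) * x - 1 = t * s + t + s := by
      simp only [hs, ht, sub_mul, mul_sub, one_mul, mul_one]; abel
    rw [hts, zero_add, add_comm, ← hval, sub_left_inj] at h2
    rw [Units.val_mul y x, h2]
  refine ⟨?_, hcomm⟩
  by_cases h0 : s + t = 0
  · left
    apply Units.ext
    rw [h0, sub_eq_zero] at hval
    exact hval
  right
  have hr : LinearMap.range (s + t) ≤ LinearMap.range a := by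
    rintro _ ⟨m, rfl⟩
    exact add_mem (hxr ▸ LinearMap.mem_range_self s m) (hyr ▸ LinearMap.mem_range_self t m)
  have hk : LinearMap.ker a ≤ LinearMap.ker (s + t) := by
    intro m hm
    have h1 : s m = 0 := (hxk.symm ▸ hm : m ∈ LinearMap.ker s)
    have h2 : t m = 0 := (hyk.symm ▸ hm : m ∈ LinearMap.ker t)
    simp [h1, h2]
  have hquad : x * y ∈ quadraticElements G := by
    refine ⟨mul_mem hxG hyG, ⟨?_, by rwa [hval]⟩, ?_⟩
    · rw [hval, add_mul, mul_add, mul_add, hst, hts, hxx, hyy]; abel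
    · rintro τ ⟨c, hc⟩
      rw [hval] at hc
      have h1 : (c • s) * (c • s) = 0 := by rw [smul_mul_smul_comm, hxx, smul_zero]
      have h2 : (c • t) * (c • t) = 0 := by rw [smul_mul_smul_comm, hyy, smul_zero]
      have hτ : τ = unipUnit (c • s) h1 * unipUnit (c • t) h2 := by
        apply Units.ext
        show (τ : M →ₗ[k] M) = (1 + c • s) * (1 + c • t)
        rw [hc, add_mul, one_mul, mul_add, mul_one, smul_mul_smul_comm, hst, smul_zero, smul_add]
        abel
      rw [hτ]
      exact mul_mem (hxs ⟨c, rfl⟩) (hys ⟨c, rfl⟩)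
  have hcr : commutatorRank (x * y) = Module.finrank k (LinearMap.range (s + t)) :=
    congrArg (fun f : M →ₗ[k] M => Module.finrank k (LinearMap.range f)) hval
  have hrank : LinearMap.range (s + t) = LinearMap.range a := by
    refine Submodule.eq_of_le_of_finrank_le hr ?_
    have := hσ.2 _ hquad
    rw [hcr] at this
    exact this
  refine ⟨⟨hquad, fun τ hτ => ?_⟩, ?_, ?_⟩
  · have := hσ.2 τ hτ
    rw [hcr, hrank]
    exact this
  · rw [hval]
    refine (Submodule.eq_of_le_of_finrank_le hk ?_).symm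
    have e1 := LinearMap.finrank_range_add_finrank_ker (s + t)
    have e2 := LinearMap.finrank_range_add_finrank_ker a
    rw [hrank] at e1
    omega
  · rw [hval]; exact hrank

theorem sameActionClass_inv_mem {σ x : GLM} (hx : x ∈ sameActionClass G σ) :
    x⁻¹ ∈ sameActionClass G σ := by
  obtain ⟨⟨⟨hxG, ⟨hxx, hxne⟩, hxs⟩, hxmin⟩, hxk, hxr⟩ := hx
  have hv := sub_one_inv hxx
  refine ⟨⟨⟨inv_mem hxG, ⟨?_, ?_⟩, ?_⟩, fun τ hτ => ?_⟩, ?_, ?_⟩
  · rw [hv, neg_mul_neg, hxx]
  · rw [hv]; exact neg_ne_zero.2 hxne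
  · rintro τ ⟨c, hc⟩
    refine hxs ⟨-c, ?_⟩
    rw [hc, hv, smul_neg, neg_smul]
  · have hcr : commutatorRank x⁻¹ = commutatorRank x := by
      refine (congrArg (fun f : M →ₗ[k] M => Module.finrank k (LinearMap.range f)) hv).trans ?_
      rw [LinearMap.range_neg]; rfl
    exact hcr ▸ hxmin τ hτ
  · rw [hv, LinearMap.ker_neg]; exact hxk
  · rw [hv, LinearMap.range_neg]; exact hxr

/-- `E(σ) = E_σ ∪ {1}`. -/
theorem sameActionSubgroup_coe {σ : GLM} (hσ : σ ∈ minimalQuadraticElements G) :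
    (sameActionSubgroup G σ : Set GLM) = sameActionClass G σ ∪ {1} := by
  refine Set.Subset.antisymm ?_ (Set.union_subset Subgroup.subset_closure
    (Set.singleton_subset_iff.2 (one_mem _)))
  intro x hx
  induction hx using Subgroup.closure_induction with
  | mem y hy => exact Or.inl hy
  | one => exact Or.inr rfl
  | mul y z _ _ hy hz =>
    rcases hy with hy | rfl
    · rcases hz with hz | rfl
      · rcases (sameActionClass_mul_mem hσ hy hz).1 with h | h
        exacts [Or.inr h, Or.inl h]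
      · rw [mul_one]; exact Or.inl hy
    · rw [one_mul]; exact hz
  | inv y _ hy =>
    rcases hy with hy | rfl
    · exact Or.inl (sameActionClass_inv_mem hy)
    · exact Or.inr inv_one

end Cfsg.Agent.RootSub
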