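import Cfsg.Prelude.Def_RootSubgroups

/-! Rank one pairs: conjugation calculus, the set of unipotent subgroups, basic consequences. -/

set_option autoImplicit false

namespace Cfsg.Agent.RootSub

open Cfsg
open scoped commutatorElement

variable {G : Type*} [Group G]

/-! ### Conjugation -/

theorem mem_conjBy {A : Subgroup G} {g x : G} : x ∈ conjBy A g ↔ g⁻¹ * x * g ∈ A := by
  constructor
  · rintro ⟨a, ha, rfl⟩
    simpa [MulAut.conj_apply, mul_assoc] using ha
  · intro h
    exact ⟨_, h, by simp [MulAut.conj_apply, mul_assoc]⟩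

theorem conj_mem_conjBy {A : Subgroup G} {a : G} (g : G) (ha : a ∈ A) :
    g * a * g⁻¹ ∈ conjBy A g := by
  rw [mem_conjBy]; simpa [mul_assoc] using ha

theorem conjBy_one (A : Subgroup G) : conjBy A 1 = A := by
  ext x; simp [mem_conjBy]

theorem conjBy_conjBy (A : Subgroup G) (g h : G) :
    conjBy (conjBy A g) h = conjBy A (h * g) := by
  ext x; simp [mem_conjBy, mul_assoc]

theorem conjBy_inj {A B : Subgroup G} {g : G} (h : conjBy A g = conjBy B g) : A = B :=
  Subgroup.map_injective (MulAut.conj g).injective h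

theorem conjBy_eq_iff {A B : Subgroup G} {g : G} : conjBy A g = B ↔ A = conjBy B g⁻¹ := by
  constructor
  · rintro rfl; rw [conjBy_conjBy, inv_mul_cancel, conjBy_one]
  · rintro rfl; rw [conjBy_conjBy, mul_inv_cancel, conjBy_one]

theorem conjBy_le_iff {A B : Subgroup G} {g : G} : conjBy A g ≤ conjBy B g ↔ A ≤ B :=
  Subgroup.map_le_map_iff_of_injective (MulAut.conj g).injective

theorem conjBy_sup (A B : Subgroup G) (g : G) :
    conjBy (A ⊔ B) g = conjBy A g ⊔ conjBy B g := Subgroup.map_sup ..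

theorem conjBy_commutator (A B : Subgroup G) (g : G) :
    conjBy ⁅A, B⁆ g = ⁅conjBy A g, conjBy B g⁆ := Subgroup.map_commutator A B _

theorem conjBy_bot (g : G) : conjBy (⊥ : Subgroup G) g = ⊥ := Subgroup.map_bot _

theorem conjBy_eq_bot {A : Subgroup G} {g : G} : conjBy A g = ⊥ ↔ A = ⊥ :=
  ⟨fun h => conjBy_inj (h.trans (conjBy_bot g).symm), fun h => by rw [h, conjBy_bot]⟩

theorem conjBy_eq_self_iff {A : Subgroup G} {g : G} :
    conjBy A g = A ↔ g ∈ Subgroup.normalizer (A : Set G) := by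
  rw [Subgroup.mem_normalizer_iff]
  constructor
  · intro h x
    constructor
    · intro hx
      have := conj_mem_conjBy g hx
      rwa [h] at this
    · intro hx
      rw [← h, mem_conjBy] at hx
      simpa [mul_assoc] using hx
  · intro h
    ext x
    rw [mem_conjBy, h]
    simp [mul_assoc]

theorem conjBy_mem_self {A : Subgroup G} {g : G} (hg : g ∈ A) : conjBy A g = A :=
  conjBy_eq_self_iff.2 (Subgroup.le_normalizer hg)

theorem conjBy_of_commute {A : Subgroup G} {g : G} (h : ∀ a ∈ A, g * a = a * g) :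
    conjBy A g = A := by
  ext x
  rw [mem_conjBy]
  constructor
  · intro hx
    have h2 : g * (g⁻¹ * x * g) = g⁻¹ * x * g * g := h _ hx
    have : x = g⁻¹ * x * g := by
      apply mul_right_cancel (b := g)
      simpa [mul_assoc] using h2
    rwa [this]
  · intro hx
    have h2 := h x hx
    have h3 : g⁻¹ * x * g = x := by rw [mul_assoc, ← h2, ← mul_assoc, inv_mul_cancel, one_mul]
    rwa [h3]

theorem conjBy_le_of_mem {A H : Subgroup G} {g : G} (hA : A ≤ H) (hg : g ∈ H) :
    conjBy A g ≤ H := by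
  intro x hx
  have := hA (mem_conjBy.1 hx)
  have h2 := H.mul_mem (H.mul_mem hg this) (H.inv_mem hg)
  simpa [mul_assoc] using h2

theorem commutator_eq_bot_iff_forall {A B : Subgroup G} :
    ⁅A, B⁆ = ⊥ ↔ ∀ a ∈ A, ∀ b ∈ B, a * b = b * a := by
  rw [eq_bot_iff, Subgroup.commutator_le]
  simp only [Subgroup.mem_bot, commutatorElement_eq_one_iff_commute]
  rfl

theorem forall_sup_commute {A B : Subgroup G} {z : G} (hA : ∀ a ∈ A, z * a = a * z)
    (hB : ∀ b ∈ B, z * b = b * z) : ∀ x ∈ A ⊔ B, z * x = x * z := by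
  have h : A ⊔ B ≤ Subgroup.centralizer {z} := sup_le
    (fun a ha => Subgroup.mem_centralizer_singleton_iff.2 (by simpa using (hA a ha).symm))
    (fun a ha => Subgroup.mem_centralizer_singleton_iff.2 (by simpa using (hB a ha).symm))
  intro x hx
  exact (Subgroup.mem_centralizer_singleton_iff.1 (h hx)).symm

/-- A hom with injective restriction carries rank one pairs to rank one pairs and back. -/
theorem map_conjBy {H : Type*} [Group H] (f : G →* H) (A : Subgroup G) (g : G) :
    (conjBy A g).map f = conjBy (A.map f) (f g) := by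
  show (A.map (MulAut.conj g).toMonoidHom).map f = (A.map f).map (MulAut.conj (f g)).toMonoidHom
  rw [Subgroup.map_map, Subgroup.map_map]
  congr 1
  ext x; simp [MulAut.conj_apply]

theorem isRankOnePair_map_iff {H : Type*} [Group H] {f : G →* H} (hf : Function.Injective f)
    {A B : Subgroup G} : IsRankOnePair (A.map f) (B.map f) ↔ IsRankOnePair A B := by
  have cond : ∀ P Q : Subgroup G,
      RankOneCondition (P.map f) (Q.map f) ↔ RankOneCondition P Q := by
    intro P Q
    constructor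
    · intro h a ha ha1
      obtain ⟨_, ⟨b, hb, rfl⟩, hb1, he⟩ :=
        h (f a) (Subgroup.mem_map_of_mem f ha) ((map_ne_one_iff f hf).2 ha1)
      refine ⟨b, hb, (map_ne_one_iff f hf).1 hb1, Subgroup.map_injective hf ?_⟩
      rw [map_conjBy, map_conjBy, map_inv, map_inv]
      exact he
    · rintro h _ ⟨a, ha, rfl⟩ ha1
      obtain ⟨b, hb, hb1, he⟩ := h a ha ((map_ne_one_iff f hf).1 ha1)
      refine ⟨f b, Subgroup.mem_map_of_mem f hb, (map_ne_one_iff f hf).2 hb1, ?_⟩
      have := congrArg (Subgroup.map f) he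
      rwa [map_conjBy, map_conjBy, map_inv, map_inv] at this
  have nil : ∀ P : Subgroup G, Group.IsNilpotent ↥(P.map f) ↔ Group.IsNilpotent P := by
    intro P
    let e := Subgroup.equivMapOfInjective P f hf
    constructor
    · intro h; exact Group.nilpotent_of_mulEquiv e.symm
    · intro h; exact Group.nilpotent_of_mulEquiv e
  constructor
  · intro h
    exact ⟨fun hh => h.ne (by rw [hh]), (nil A).1 h.nilpotent_left, (nil B).1 h.nilpotent_right,
      (cond A B).1 h.cond_left, (cond B A).1 h.cond_right⟩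
  · intro h
    exact ⟨fun hh => h.ne (Subgroup.map_injective hf hh), (nil A).2 h.nilpotent_left,
      (nil B).2 h.nilpotent_right, (cond A B).2 h.cond_left, (cond B A).2 h.cond_right⟩

theorem isRankOnePair_subgroupOf {K A B : Subgroup G} (hA : A ≤ K) (hB : B ≤ K) :
    IsRankOnePair (A.subgroupOf K) (B.subgroupOf K) ↔ IsRankOnePair A B := by
  have := isRankOnePair_map_iff (A := A.subgroupOf K) (B := B.subgroupOf K) (f := K.subtype)
    Subtype.val_injective
  rw [Subgroup.subgroupOf_map_subtype, Subgroup.subgroupOf_map_subtype, inf_eq_left.2 hA,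
    inf_eq_left.2 hB] at this
  exact this.symm

/-! ### Rank one pairs -/

namespace Pair

variable {A B : Subgroup G}

theorem conj (h : IsRankOnePair A B) (g : G) : IsRankOnePair (conjBy A g) (conjBy B g) :=
  (isRankOnePair_map_iff (f := (MulAut.conj g).toMonoidHom) (MulAut.conj g).injective).2 h

theorem eq_one_of_normalizes (h : IsRankOnePair A B) {a : G} (ha : a ∈ A)
    (hn : conjBy B a = B) : a = 1 := by
  by_contra ha1
  obtain ⟨b, hb, -, he⟩ := h.cond_left a ha ha1
  rw [← conjBy_eq_iff.1 hn, conjBy_eq_iff, inv_inv, conjBy_mem_self hb] at he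
  exact h.ne he

theorem ne_bot_left (h : IsRankOnePair A B) : A ≠ ⊥ := by
  intro hA
  have hB : B = ⊥ := by
    rw [eq_bot_iff]
    intro b hb
    by_contra hb1
    obtain ⟨a, ha, ha1, -⟩ := h.cond_right b hb (by simpa using hb1)
    rw [hA] at ha
    exact ha1 (by simpa using ha)
  exact h.ne (hA.trans hB.symm)

theorem ne_bot_right (h : IsRankOnePair A B) : B ≠ ⊥ := ne_bot_left (RankOnePair_symm h)

theorem exists_ne_one {H : Subgroup G} (h : H ≠ ⊥) : ∃ x ∈ H, x ≠ 1 :=
  H.bot_or_exists_ne_one.resolve_left h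

theorem partner_unique (h : IsRankOnePair A B) {b b' : G} (hb : b ∈ B) (hb' : b' ∈ B)
    (he : conjBy A b⁻¹ = conjBy A b'⁻¹) : b = b' := by
  have h1 : conjBy A (b' * b⁻¹) = A := by
    rw [← conjBy_conjBy, he, conjBy_conjBy, mul_inv_cancel, conjBy_one]
  have := eq_one_of_normalizes (RankOnePair_symm h) (B.mul_mem hb' (B.inv_mem hb)) h1
  exact (mul_inv_eq_one.1 this).symm

theorem left_mem_unipotents : A ∈ unipotentSubgroups A B :=
  ⟨1, one_mem _, (conjBy_one A).symm⟩

theorem unip_invariant {C : Subgroup G} (hC : C ∈ unipotentSubgroups A B) {x : G}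
    (hx : x ∈ A ⊔ B) : conjBy C x ∈ unipotentSubgroups A B := by
  obtain ⟨y, hy, rfl⟩ := hC
  exact ⟨x * y, mul_mem hx hy, conjBy_conjBy ..⟩

theorem unip_le {C : Subgroup G} (hC : C ∈ unipotentSubgroups A B) : C ≤ A ⊔ B := by
  obtain ⟨x, hx, rfl⟩ := hC
  exact conjBy_le_of_mem le_sup_left hx

theorem right_mem_unipotents (h : IsRankOnePair A B) : B ∈ unipotentSubgroups A B := by
  obtain ⟨a, ha, ha1⟩ := exists_ne_one (ne_bot_left h)
  obtain ⟨b, hb, -, he⟩ := h.cond_left a ha ha1
  refine ⟨a * b⁻¹, mul_mem (Subgroup.mem_sup_left ha) (inv_mem (Subgroup.mem_sup_right hb)), ?_⟩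
  rw [← conjBy_conjBy, he, conjBy_conjBy, mul_inv_cancel, conjBy_one]

/-- `Ω = {A} ∪ B^A`. -/
theorem unip_cases (h : IsRankOnePair A B) {C : Subgroup G} (hC : C ∈ unipotentSubgroups A B) :
    C = A ∨ ∃ a ∈ A, C = conjBy B a := by
  obtain ⟨x, hx, rfl⟩ := hC
  let P : Subgroup G → Prop := fun C => C = A ∨ ∃ a ∈ A, C = conjBy B a
  have hPA : ∀ a ∈ A, ∀ C, P C → P (conjBy C a) := by
    rintro a ha C (rfl | ⟨a', ha', rfl⟩)
    · exact Or.inl (conjBy_mem_self ha)
    · exact Or.inr ⟨a * a', mul_mem ha ha', conjBy_conjBy ..⟩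
  have hb_A : ∀ b ∈ B, P (conjBy A b) := by
    intro b hb
    by_cases hb1 : b = 1
    · exact Or.inl (by rw [hb1, conjBy_one])
    · obtain ⟨a, ha, -, he⟩ := h.cond_right b⁻¹ (inv_mem hb) (by simpa using hb1)
      rw [inv_inv] at he
      exact Or.inr ⟨a⁻¹, inv_mem ha, he.symm⟩
  have hPB : ∀ b ∈ B, ∀ C, P C → P (conjBy C b) := by
    rintro b hb C (rfl | ⟨a', ha', rfl⟩)
    · exact hb_A b hb
    · by_cases ha1 : a' = 1
      · exact Or.inr ⟨1, one_mem A, by rw [ha1, conjBy_one, conjBy_mem_self hb]⟩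
      · obtain ⟨b', hb', -, he⟩ := h.cond_left a'⁻¹ (inv_mem ha') (by simpa using ha1)
        rw [inv_inv] at he
        rw [← he, conjBy_conjBy]
        exact hb_A _ (mul_mem hb (inv_mem hb'))
  suffices h2 : ∀ C, P C → P (conjBy C x) from h2 A (Or.inl rfl)
  rw [Subgroup.sup_eq_closure] at hx
  refine Subgroup.closure_induction'' (p := fun y _ => ∀ C, P C → P (conjBy C y)) ?_ ?_ ?_ ?_ hx
  · rintro y (hy | hy)
    exacts [hPA y hy, hPB y hy]
  · rintro y (hy | hy)
    exacts [hPA _ (inv_mem hy), hPB _ (inv_mem hy)]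
  · intro C hC; rwa [conjBy_one]
  · intro y z _ _ hy hz C hC
    rw [← conjBy_conjBy]
    exact hy _ (hz C hC)

theorem conjBy_right_ne_left (h : IsRankOnePair A B) {a : G} (ha : a ∈ A) : conjBy B a ≠ A := by
  intro he
  rw [conjBy_eq_iff, conjBy_mem_self (inv_mem ha)] at he
  exact h.ne he.symm

/-- Any ordered pair of different members of Ω is the image of `(A, B)`. -/
theorem exists_conj_pair (h : IsRankOnePair A B) {C D : Subgroup G}
    (hC : C ∈ unipotentSubgroups A B) (hD : D ∈ unipotentSubgroups A B) (hne : C ≠ D) :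
    ∃ x ∈ A ⊔ B, conjBy A x = C ∧ conjBy B x = D := by
  obtain ⟨y, hy, rfl⟩ := hC
  rcases unip_cases h (unip_invariant hD (inv_mem hy)) with he | ⟨a, ha, he⟩
  · exact absurd (conjBy_eq_iff.1 he) (by simpa using hne.symm)
  · refine ⟨y * a, mul_mem hy (Subgroup.mem_sup_left ha), ?_, ?_⟩
    · rw [← conjBy_conjBy, conjBy_mem_self ha]
    · rw [← conjBy_conjBy, ← he, conjBy_conjBy, mul_inv_cancel, conjBy_one]

theorem sup_eq_of_ne (h : IsRankOnePair A B) {C D : Subgroup G}
    (hC : C ∈ unipotentSubgroups A B) (hD : D ∈ unipotentSubgroups A B) (hne : C ≠ D) :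
    C ⊔ D = A ⊔ B := by
  obtain ⟨x, hx, rfl, rfl⟩ := exists_conj_pair h hC hD hne
  rw [← conjBy_sup, conjBy_mem_self hx]

theorem pair_of_ne (h : IsRankOnePair A B) {C D : Subgroup G}
    (hC : C ∈ unipotentSubgroups A B) (hD : D ∈ unipotentSubgroups A B) (hne : C ≠ D) :
    IsRankOnePair C D := by
  obtain ⟨x, hx, rfl, rfl⟩ := exists_conj_pair h hC hD hne
  exact conj h x

theorem unipotents_eq_of_ne (h : IsRankOnePair A B) {C D : Subgroup G}
    (hC : C ∈ unipotentSubgroups A B) (hD : D ∈ unipotentSubgroups A B) (hne : C ≠ D) :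
    unipotentSubgroups C D = unipotentSubgroups A B := by
  have hs := sup_eq_of_ne h hC hD hne
  obtain ⟨y, hy, rfl⟩ := hC
  ext E
  constructor
  · rintro ⟨x, hx, rfl⟩
    rw [conjBy_conjBy]
    exact ⟨x * y, mul_mem (hs ▸ hx) hy, rfl⟩
  · rintro ⟨x, hx, rfl⟩
    refine ⟨x * y⁻¹, ?_, ?_⟩
    · rw [hs]; exact mul_mem hx (inv_mem hy)
    · rw [conjBy_conjBy, inv_mul_cancel_right]

theorem inf_eq_bot (h : IsRankOnePair A B) : A ⊓ B = ⊥ := by
  rw [eq_bot_iff]
  rintro x ⟨hxA, hxB⟩
  exact Subgroup.mem_bot.2 (eq_one_of_normalizes h hxA (conjBy_mem_self hxB))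

theorem inf_eq_bot_of_ne (h : IsRankOnePair A B) {C D : Subgroup G}
    (hC : C ∈ unipotentSubgroups A B) (hD : D ∈ unipotentSubgroups A B) (hne : C ≠ D) :
    C ⊓ D = ⊥ := inf_eq_bot (pair_of_ne h hC hD hne)

theorem not_commute (h : IsRankOnePair A B) {a b : G} (ha : a ∈ A) (ha1 : a ≠ 1) (hb : b ∈ B)
    (hb1 : b ≠ 1) : a * b ≠ b * a := by
  intro hab
  have hne : A ≠ conjBy A b := fun he =>
    hb1 (eq_one_of_normalizes (RankOnePair_symm h) hb he.symm)
  have hmem : a ∈ conjBy A b := by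
    rw [mem_conjBy, mul_assoc, hab, ← mul_assoc, inv_mul_cancel, one_mul]
    exact ha
  have := inf_eq_bot_of_ne h left_mem_unipotents
    (unip_invariant left_mem_unipotents (Subgroup.mem_sup_right hb)) hne
  have h2 : a ∈ A ⊓ conjBy A b := ⟨ha, hmem⟩
  rw [this] at h2
  exact ha1 (Subgroup.mem_bot.1 h2)

theorem commutator_ne_bot (h : IsRankOnePair A B) : ⁅A, B⁆ ≠ ⊥ := by
  intro h0
  obtain ⟨a, ha, ha1⟩ := exists_ne_one (ne_bot_left h)
  obtain ⟨b, hb, hb1⟩ := exists_ne_one (ne_bot_right h)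
  exact not_commute h ha ha1 hb hb1 (commutator_eq_bot_iff_forall.1 h0 a ha b hb)

theorem eq_of_commute (h : IsRankOnePair A B) {C D : Subgroup G}
    (hC : C ∈ unipotentSubgroups A B) (hD : D ∈ unipotentSubgroups A B) (hc : ⁅C, D⁆ = ⊥) :
    C = D := by
  by_contra hne
  exact commutator_ne_bot (pair_of_ne h hC hD hne) hc

theorem not_commute_commutator (h : IsRankOnePair A B) {a b : G} (ha : a ∈ A) (ha1 : a ≠ 1)
    (hb : b ∈ B) (hb1 : b ≠ 1) : ⁅a, b⁆ * b ≠ b * ⁅a, b⁆ := by
  intro hc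
  have hne : conjBy B a ≠ B := fun he => ha1 (eq_one_of_normalizes h ha he)
  have hp := pair_of_ne h (unip_invariant (right_mem_unipotents h) (Subgroup.mem_sup_left ha))
    (right_mem_unipotents h) hne
  refine not_commute hp (conj_mem_conjBy a hb) ?_ hb hb1 ?_
  · simpa using hb1
  · rw [commutatorElement_def] at hc
    calc a * b * a⁻¹ * b = (a * b * a⁻¹ * b⁻¹ * b) * b := by group
      _ = (b * (a * b * a⁻¹ * b⁻¹)) * b := by rw [hc]
      _ = b * (a * b * a⁻¹) := by group

/-- An element of `X` normalizing `B` and centralizing `A` is central in `X`. -/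
theorem central_of_centralizes (h : IsRankOnePair A B) {z : G} (hA : ∀ a ∈ A, z * a = a * z)
    (hB : conjBy B z = B) : ∀ x ∈ A ⊔ B, z * x = x * z := by
  refine forall_sup_commute hA fun b hb => ?_
  by_cases hb1 : b = 1
  · simp [hb1]
  obtain ⟨a, ha, ha1, he⟩ := h.cond_right b hb hb1
  have hb' : z * b * z⁻¹ ∈ B := by
    have := conj_mem_conjBy z hb
    rwa [hB] at this
  have hzA : conjBy A z = A := conjBy_of_commute hA
  have hza : z * a⁻¹ = a⁻¹ * z := hA _ (inv_mem ha)
  have : conjBy A (z * b * z⁻¹)⁻¹ = conjBy A b⁻¹ := by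
    have e1 : (z * b * z⁻¹)⁻¹ = z * (b⁻¹ * z⁻¹) := by group
    rw [e1, ← conjBy_conjBy _ _ z, ← conjBy_conjBy _ _ b⁻¹, ← conjBy_eq_iff.1 hzA, ← he,
      conjBy_conjBy, hza, ← conjBy_conjBy, hB]
  have h3 := partner_unique h hb' hb this
  rw [mul_inv_eq_iff_eq_mul] at h3
  exact h3

theorem exists_decomp_of_centralizes (h : IsRankOnePair A B) [IsMulCommutative A] {x : G}
    (hx : x ∈ A ⊔ B) (hA : ∀ a ∈ A, x * a = a * x) :
    ∃ a ∈ A, ∀ y ∈ A ⊔ B, a⁻¹ * x * y = y * (a⁻¹ * x) := by
  rcases unip_cases h (unip_invariant (right_mem_unipotents h) hx) with he | ⟨a, ha, he⟩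
  · have := conjBy_of_commute hA
    exact absurd (conjBy_inj (he.trans this.symm)) h.ne.symm
  refine ⟨a, ha, central_of_centralizes h (fun a' ha' => ?_) ?_⟩
  · have hc : a⁻¹ * a' = a' * a⁻¹ :=
      congrArg Subtype.val (mul_comm' (⟨a⁻¹, inv_mem ha⟩ : A) ⟨a', ha'⟩)
    rw [mul_assoc, hA a' ha', ← mul_assoc, hc, mul_assoc]
  · rw [← conjBy_conjBy, he, conjBy_conjBy, inv_mul_cancel, conjBy_one]

/-- An element all whose commutators with `X` are central in `X` is central in `X`. -/
theorem central_of_commutator_central (h : IsRankOnePair A B) {z : G} (hz : z ∈ A ⊔ B)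
    (hc : ∀ x ∈ A ⊔ B, ∀ y ∈ A ⊔ B, ⁅z, x⁆ * y = y * ⁅z, x⁆) :
    ∀ x ∈ A ⊔ B, z * x = x * z := by
  have key : ∀ {P Q : Subgroup G}, IsRankOnePair P Q → P ⊔ Q = A ⊔ B →
      ∀ a ∈ P, z * a = a * z := by
    intro P Q hPQ hs a ha
    have haX : a ∈ A ⊔ B := hs ▸ Subgroup.mem_sup_left ha
    by_cases ha1 : a = 1
    · simp [ha1]
    have hfix : conjBy P z = P := by
      by_contra hne
      have hp := pair_of_ne hPQ (unip_invariant left_mem_unipotents (hs.symm ▸ hz))
        left_mem_unipotents hne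
      refine not_commute hp (conj_mem_conjBy z ha) (by simpa using ha1) ha ha1 ?_
      have := hc a haX a haX
      rw [commutatorElement_def] at this
      calc z * a * z⁻¹ * a = (z * a * z⁻¹ * a⁻¹ * a) * a := by group
        _ = (a * (z * a * z⁻¹ * a⁻¹)) * a := by rw [this]
        _ = a * (z * a * z⁻¹) := by group
    have hw : ⁅z, a⁆ ∈ P := by
      have := conj_mem_conjBy z ha
      rw [hfix] at this
      simpa [commutatorElement_def] using mul_mem this (inv_mem ha)
    have hw1 : ⁅z, a⁆ = 1 := eq_one_of_normalizes hPQ hw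
      (conjBy_of_commute fun b hb => hc a haX b (hs ▸ Subgroup.mem_sup_right hb))
    exact commutatorElement_eq_one_iff_commute.1 hw1
  exact forall_sup_commute (key h rfl) (key (RankOnePair_symm h) (sup_comm B A))

/-- A subgroup of `X` normalized by `X` is central or supplements `A`. -/
theorem dichotomy (h : IsRankOnePair A B) {N : Subgroup G} (hN : N ≤ A ⊔ B)
    (hn : ∀ x ∈ A ⊔ B, ∀ n ∈ N, x * n * x⁻¹ ∈ N) :
    A ⊔ B ≤ N ⊔ A ∨ ∀ n ∈ N, ∀ x ∈ A ⊔ B, n * x = x * n := by
  by_cases hfix : ∀ n ∈ N, ∀ C ∈ unipotentSubgroups A B, conjBy C n = C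
  · right
    intro n hn'
    have key : ∀ {P Q : Subgroup G}, IsRankOnePair P Q → P ≤ A ⊔ B →
        P ∈ unipotentSubgroups A B → Q ∈ unipotentSubgroups A B →
        ∀ a ∈ P, n * a = a * n := by
      intro P Q hPQ hP hPΩ hQΩ a ha
      have hw : ⁅n, a⁆ ∈ N := by
        have := mul_mem hn' (hn a (hP ha) _ (inv_mem hn'))
        simpa [commutatorElement_def, mul_assoc] using this
      have hwP : ⁅n, a⁆ ∈ P := by
        have := conj_mem_conjBy n ha
        rw [hfix n hn' P hPΩ] at this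
        simpa [commutatorElement_def] using mul_mem this (inv_mem ha)
      exact commutatorElement_eq_one_iff_commute.1
        (eq_one_of_normalizes hPQ hwP (hfix _ hw Q hQΩ))
    exact forall_sup_commute (key h le_sup_left left_mem_unipotents (right_mem_unipotents h))
      (key (RankOnePair_symm h) le_sup_right (right_mem_unipotents h) left_mem_unipotents)
  · left
    push Not at hfix
    obtain ⟨n, hn', C, hC, hne⟩ := hfix
    obtain ⟨x, hx, hxA, hxB⟩ := exists_conj_pair h hC (unip_invariant hC (hN hn')) (Ne.symm hne)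
    have hm : x⁻¹ * n * x ∈ N := by simpa using hn x⁻¹ (inv_mem hx) n hn'
    have hmA : conjBy A (x⁻¹ * n * x) = B := by
      rw [← conjBy_conjBy, hxA, ← conjBy_conjBy, ← hxB, conjBy_conjBy, inv_mul_cancel, conjBy_one]
    refine sup_le le_sup_right ?_
    rw [← hmA]
    exact conjBy_le_of_mem le_sup_right (Subgroup.mem_sup_left hm)

end Pair

end Cfsg.Agent.RootSub
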